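/-
The point geometry of the Tits group without a hypothesis on all 2-locals: the lines through a point
(the proofs of `Even/NGrp/Tits2` for the structure `TG0`).
-/
import Cfsg.Agent.Even.NGrp.Tits5

set_option autoImplicit false
set_option linter.unusedSectionVars false
open Cfsg Subgroup CL.Grp CL.Even
open scoped Pointwise commutatorElement

namespace CL.NGrp.Tits

variable {G : Type*} [Group G] [Finite G] {U : G → Subgroup G} {A : G → G → Prop}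

omit [Finite G] in
/-- `TG` without the field `loc` -/
structure TG0 (U : G → Subgroup G) (A : G → G → Prop) : Prop where
  cjU : ∀ g p, cj g (U p) = U (g * p * g⁻¹)
  cjA : ∀ (g) {p q}, A p q → A (g * p * g⁻¹) (g * q * g⁻¹)
  trans : ∀ {p q p' q'}, A p q → A p' q' → ∃ g, g * p * g⁻¹ = p' ∧ g * q * g⁻¹ = q'
  symm : ∀ {p q}, A p q → A q p
  mul : ∀ {p q}, A p q → A p (p * q)
  sq : ∀ {p q}, A p q → p * p = 1
  ne1 : ∀ {p q}, A p q → p ≠ 1
  ne : ∀ {p q}, A p q → p ≠ q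
  comm : ∀ {p q}, A p q → p * q = q * p
  Ule : ∀ {p q}, A p q → ∀ K, U p ≤ K ↔ ∀ s, A p s → s ∈ K
  cU : ∀ {p q}, A p q → Nat.card (U p) = 32
  cI : ∀ {p q}, A p q → Nat.card (U p ⊓ U q : Subgroup G) = 8
  cD : ∀ {p q}, A p q → Nat.card (U p ⊓ gQ q : Subgroup G) = 16
  cQ : ∀ {p q}, A p q → Nat.card (gQ p) = 512
  cC : ∀ {p q}, A p q → Nat.card 𝒵(p) = 10240
  cN : ∀ {p q}, A p q → Nat.card 𝒩(ln p q) = 6144
  cent : ∀ {p q}, A p q → 𝒞(U p) = U p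
  cm : ∀ {p q}, A p q → ⁅U p, U q⁆ = U p ⊓ U q


namespace TG0

variable (h : TG0 U A) {p q s : G}
include h

theorem sq' (a : A p q) : q * q = 1 := h.sq (h.symm a)
theorem ne1' (a : A p q) : q ≠ 1 := h.ne1 (h.symm a)

theorem mem_ln (a : A p q) {x : G} : x ∈ ln p q ↔ x = 1 ∨ x = p ∨ x = q ∨ x = p * q :=
  mem_ln' (h.sq a) (h.sq' a) (h.comm a)

theorem card_ln (a : A p q) : Nat.card (ln p q) = 4 :=
  Tits.card_ln (h.sq a) (h.sq' a) (h.comm a) (h.ne1 a) (h.ne1' a) (h.ne a)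

theorem ln_eq (a : A p q) {p' q' : G} (b : A p' q') (hp : p' ∈ ln p q) (hq : q' ∈ ln p q) :
    ln p' q' = ln p q :=
  eq_of_le_of_card_ge (ln_le hp hq) (by rw [h.card_ln a, h.card_ln b])

theorem ln_eq' (a : A p q) (b : A p s) (hs : s ∈ ln p q) : ln p s = ln p q :=
  h.ln_eq a b (left_mem_ln _ _) hs

theorem ln_mul (a : A p q) : ln p (p * q) = ln p q := h.ln_eq' a (h.mul a) (mul_mem_ln _ _)

theorem mem_ln_symm (a : A p q) (b : A p s) (hs : s ∈ ln p q) : q ∈ ln p s := by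
  rw [h.ln_eq' a b hs]; exact right_mem_ln _ _

theorem eq_of_mem_ln (a : A p q) (b : A p s) (hs : s ∈ ln p q) : s = q ∨ s = p * q := by
  rcases (h.mem_ln a).1 hs with e | e | e | e
  · exact absurd e (h.ne1' b)
  · exact absurd e.symm (h.ne b)
  · exact .inl e
  · exact .inr e

theorem adj_of_mem (a : A p q) (hs : s ∈ ln p q) (h1 : s ≠ 1) (h2 : s ≠ p) : A p s := by
  rcases (h.mem_ln a).1 hs with e | e | e | e
  · exact absurd e h1
  · exact absurd e h2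
  · exact e ▸ a
  · exact e ▸ h.mul a

theorem exists_adj_ln (a : A p q) (hs : s ∈ ln p q) (h1 : s ≠ 1) : ∃ t, A s t ∧ ln s t = ln p q := by
  by_cases h2 : s = p
  · exact ⟨q, h2 ▸ a, by rw [h2]⟩
  · have b := h.adj_of_mem a hs h1 h2
    exact ⟨p, h.symm b, by rw [ln_comm, h.ln_eq' a b hs]⟩

theorem adj_of_mem_ln (a : A p q) {t : G} (hs : s ∈ ln p q) (ht : t ∈ ln p q) (h1 : s ≠ 1) (h2 : t ≠ 1)
    (h3 : t ≠ s) : A s t := by
  obtain ⟨t', b, e⟩ := h.exists_adj_ln a hs h1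
  exact h.adj_of_mem b (e ▸ ht) h2 h3

theorem memU (a : A p q) : q ∈ U p := (h.Ule a _).1 le_rfl q a

theorem selfU (a : A p q) : p ∈ U p := by
  have := mul_mem (h.memU (h.mul a)) (h.memU a)
  rwa [mul_assoc, h.sq' a, mul_one] at this

theorem ln_le_U (a : A p q) : ln p q ≤ U p := ln_le (h.selfU a) (h.memU a)
theorem ln_le_U' (a : A p q) : ln p q ≤ U q := ln_comm q p ▸ h.ln_le_U (h.symm a)

theorem commU (a : A p q) {x y : G} (hx : x ∈ U p) (hy : y ∈ U p) : x * y = y * x :=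
  comm_of_mem ((h.cent a).ge hy) hx

theorem ZU (a : A p q) {x y : G} (hx : x ∈ U p) (hy : y ∈ U p) : x ∈ 𝒵(y) := memZ.2 (h.commU a hx hy)

theorem sqU (a : A p q) {x : G} (hx : x ∈ U p) : x * x = 1 := by
  have h1 : U p ≤ omegaOne 2 (U p) := (h.Ule a _).2 fun s b =>
    (mem_omegaOne_of_comm (h.cent a).ge).2 ⟨h.memU b, by rw [pow_two, h.sq' b]⟩
  rw [← pow_two]
  exact ((mem_omegaOne_of_comm (h.cent a).ge).1 (h1 hx)).2

theorem U_le_Z (a : A p q) : U p ≤ 𝒵(p) := fun _ hx => h.ZU a hx (h.selfU a)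

theorem Z_le_normU (p : G) : 𝒵(p) ≤ 𝒩(U p) := fun g hg =>
  cj_eq_iff_mem.1 (by rw [h.cjU, memZ'.1 hg])

theorem conjU {g x : G} (hx : x ∈ U p) : g * x * g⁻¹ ∈ U (g * p * g⁻¹) := h.cjU g p ▸ conj_mem_cj g hx

theorem U_le_Q (a : A p q) : U p ≤ gQ p :=
  le_core (h.U_le_Z a) (isP_of_card (n := 5) (h.cU a)) (h.Z_le_normU p)

theorem adj_conj (a : A p q) {g : G} (hg : g ∈ 𝒵(p)) : A p (g * q * g⁻¹) := by
  have := h.cjA g a
  rwa [memZ'.1 hg] at this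

theorem mem_St (a : A p q) {g : G} : g ∈ St p q ↔ g ∈ 𝒵(p) ∧ g * q * g⁻¹ ∈ ln p q := by
  refine ⟨fun hg => ⟨hg.2, conj_mem hg.1 (right_mem_ln _ _)⟩, fun ⟨h1, h2⟩ => ⟨?_, h1⟩⟩
  refine cj_eq_iff_mem.1 ?_
  rw [cj_ln, memZ'.1 h1, h.ln_eq' a (h.adj_conj a h1) h2]

theorem St_cases (a : A p q) {g : G} (hg : g ∈ St p q) : g * q * g⁻¹ = q ∨ g * q * g⁻¹ = p * q :=
  h.eq_of_mem_ln a (h.adj_conj a hg.2) ((h.mem_St a).1 hg).2

theorem mem_St_of_Z (a : A p q) {g : G} (h1 : g ∈ 𝒵(p)) (h2 : g ∈ 𝒵(q)) : g ∈ St p q :=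
  (h.mem_St a).2 ⟨h1, by rw [memZ'.1 h2]; exact right_mem_ln _ _⟩

theorem U_le_St (a : A p q) : U q ≤ St p q := fun _ hx =>
  h.mem_St_of_Z a (h.ZU (h.symm a) hx (h.memU (h.symm a))) (h.U_le_Z (h.symm a) hx)

theorem cS (a : A p q) : Nat.card (St p q) = 2048 := by
  have h1 := card_orb 𝒩(ln p q) p
  have h2 : orb 𝒩(ln p q) p ⊆ {p, q, p * q} := by
    rintro _ ⟨g, hg, rfl⟩
    rcases (h.mem_ln a).1 (conj_mem hg (left_mem_ln p q)) with e | e | e | e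
    · exact absurd (by simpa using e) (h.ne1 a)
    all_goals simp [e]
  have h3 : (orb 𝒩(ln p q) p).ncard ≤ 3 := (Set.ncard_le_ncard h2).trans
    ((Set.ncard_insert_le _ _).trans (Nat.succ_le_succ ((Set.ncard_insert_le _ _).trans (by simp))))
  have h4 : Nat.card (St p q) ∣ 6144 := h.cN a ▸ card_dvd_of_le inf_le_left
  have h5 : Nat.card (St p q) ∣ 10240 := h.cC a ▸ card_dvd_of_le inf_le_right
  have h6 := Nat.le_of_dvd (by norm_num) (Nat.dvd_gcd h4 h5)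
  rw [h.cN a] at h1
  have h7 := Nat.mul_le_mul_right (Nat.card (St p q)) h3
  change _ * Nat.card (St p q) = _ at h1
  norm_num at h6
  omega

theorem isP_St (a : A p q) : IsPGroup 2 (St p q) := isP_of_card (n := 11) (h.cS a)

theorem sylSt (a : A p q) : IsSylowIn 2 (St p q) 𝒵(p) := by
  refine ⟨St_le p q, h.isP_St a, ?_⟩
  have := relIndex_mul (St_le p q)
  rw [h.cS a, h.cC a] at this
  omega

theorem Q_le_St (a : A p q) : gQ p ≤ St p q := core_le_syl (h.sylSt a)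

theorem QU (a : A p q) {g u : G} (hg : g ∈ gQ p) (hu : u ∈ U p) :
    g * u * g⁻¹ = u ∨ g * u * g⁻¹ = p * u := by
  have h1 : U p ≤ cmod (gQ p) (zpowers p) := (h.Ule a _).2 fun s b => by
    refine mem_cmod.2 ⟨by rw [normZ (h.sq a)]; exact h.U_le_Z a (h.memU b), fun g hg => ?_⟩
    rw [mem_zp2 (h.sq a), commutatorElement_def]
    rcases h.St_cases b (h.Q_le_St b hg) with e | e <;> simp [e]
  have := (mem_cmod.1 (h1 hu)).2 g hg
  rw [mem_zp2 (h.sq a), commutatorElement_def] at this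
  exact this.imp mul_inv_eq_one.1 mul_inv_eq_iff_eq_mul.1

theorem St_max (a : A p q) {K : Subgroup G} (h1 : St p q ≤ K) (h2 : K ≤ 𝒵(p)) : K ≤ St p q ∨ 𝒵(p) ≤ K := by
  obtain ⟨m, hm⟩ := card_dvd_of_le h1
  have h3 := card_dvd_of_le h2
  rw [h.cS a] at hm
  rw [h.cC a, hm, show 10240 = 2048 * 5 by norm_num] at h3
  rcases (Nat.dvd_prime Nat.prime_five).1 (Nat.dvd_of_mul_dvd_mul_left (by norm_num) h3) with e | e
  · exact .inl (le_of_card_le h1 (by rw [hm, e, h.cS a]))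
  · exact .inr (le_of_card_le h2 (by rw [hm, e, h.cC a]))

theorem x5 (a : A p q) {K : Subgroup G} (hK : K ≤ 𝒵(p)) (hn : ¬ IsPGroup 2 K) : ∃ x ∈ K, orderOf x = 5 := by
  have : Fact (Nat.Prime 5) := ⟨Nat.prime_five⟩
  by_cases h5 : 5 ∣ Nat.card K
  · obtain ⟨x, hx⟩ := exists_prime_orderOf_dvd_card' (G := K) 5 h5
    exact ⟨x, x.2, by rw [orderOf_coe, hx]⟩
  · have h3 := card_dvd_of_le hK
    rw [h.cC a, show 10240 = 2 ^ 11 * 5 by norm_num] at h3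
    have := Nat.Coprime.dvd_of_dvd_mul_right
      (((Nat.Prime.coprime_iff_not_dvd Nat.prime_five).2 h5).symm) h3
    obtain ⟨k, -, hk⟩ := (Nat.dvd_prime_pow Nat.prime_two).1 this
    exact absurd (isP_of_card hk) hn

theorem ex5 (a : A p q) : ∃ x ∈ 𝒵(p), orderOf x = 5 := by
  refine h.x5 a le_rfl fun hP => ?_
  have := card_le_of_le ((h.sylSt a).eq_of_le hP (St_le p q) le_rfl).le
  rw [h.cS a, h.cC a] at this
  omega

theorem card_zp (a : A p q) : Nat.card (zpowers p) = 2 := by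
  rw [Nat.card_zpowers]
  exact orderOf_eq_prime (by rw [pow_two, h.sq a]) (h.ne1 a)

omit h in
theorem modEq5 {x : G} (hx : orderOf x = 5) {W : Subgroup G} (hW : x ∈ 𝒩(W)) :
    Nat.card W % 5 = Nat.card (W ⊓ 𝒵(x) : Subgroup G) % 5 := by
  have : Fact (Nat.Prime 5) := ⟨Nat.prime_five⟩
  exact card_modEq_card_inf_centralizer (q := 5) (Q := zpowers x)
    (IsPGroup.of_card (n := 1) (by rw [Nat.card_zpowers, hx, pow_one])) (zpowers_le.2 hW)

omit h in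
theorem dvd32 {n : ℕ} (h1 : n ∣ 32) (h2 : n % 5 = 2) : n = 2 ∨ n = 32 := by
  have := Nat.le_of_dvd (by norm_num) h1
  interval_cases n <;> simp_all

theorem CUx (a : A p q) {x : G} (hx : x ∈ 𝒵(p)) (h5 : orderOf x = 5) : U p ⊓ 𝒵(x) ≤ zpowers p := by
  have h1 := modEq5 h5 (h.Z_le_normU p hx)
  rw [h.cU a] at h1
  rcases dvd32 (h.cU a ▸ card_dvd_of_le inf_le_left) h1.symm with e | e
  · exact le_of_card_le (zpowers_le.2 ⟨h.selfU a, memZ_symm hx⟩) (by rw [e, h.card_zp a])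
  · have h2 : U p ≤ U p ⊓ 𝒵(x) := le_of_card_le inf_le_left (by rw [e, h.cU a])
    have h3 : x ∈ U p := h.cent a ▸ mem_cent_iff.2 (h2.trans inf_le_right)
    have : orderOf x ∣ 2 := orderOf_dvd_of_pow_eq_one (by rw [pow_two, h.sqU a h3])
    rw [h5] at this
    omega

theorem irr (a : A p q) {x : G} (hx : x ∈ 𝒵(p)) (h5 : orderOf x = 5) {W : Subgroup G} (hp : p ∈ W)
    (hW : W ≤ U p) (hn : x ∈ 𝒩(W)) : W ≤ zpowers p ∨ U p ≤ W := by
  have h1 := modEq5 h5 hn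
  have h2 : W ⊓ 𝒵(x) = zpowers p := le_antisymm ((inf_le_inf_right _ hW).trans (h.CUx a hx h5))
    (zpowers_le.2 ⟨hp, memZ_symm hx⟩)
  rw [h2, h.card_zp a] at h1
  rcases dvd32 (h.cU a ▸ card_dvd_of_le hW) h1 with e | e
  · exact .inl (le_of_card_le (zpowers_le.2 hp) (by rw [e, h.card_zp a]))
  · exact .inr (le_of_card_le hW (by rw [e, h.cU a]))

theorem CUQ (a : A p q) : U p ⊓ 𝒞(gQ p) ≤ zpowers p := by
  obtain ⟨x, hx, h5⟩ := h.ex5 a
  have hp : p ∈ 𝒞(gQ p) := mem_cent_iff.2 (core_le _)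
  refine (h.irr a hx h5 (W := U p ⊓ 𝒞(gQ p)) ⟨h.selfU a, hp⟩ inf_le_left
    (le_norm_inf (h.Z_le_normU p) (le_norm_cent (self_le_norm_core _)) hx)).resolve_right fun h1 => ?_
  have h2 : gQ p ≤ U p := h.cent a ▸ le_centralizer_iff.1 (h1.trans inf_le_right)
  have := card_le_of_le h2
  rw [h.cQ a, h.cU a] at this
  omega

theorem swapU (a : A p q) {u : G} (hu : u ∈ U p) (h1 : u ≠ 1) (h2 : u ≠ p) :
    ∃ g ∈ gQ p, g * u * g⁻¹ = p * u := by
  by_contra hne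
  push Not at hne
  have := h.CUQ a ⟨hu, mem_cent_iff.2 fun g hg => memZ'.2 ((h.QU a hg hu).resolve_right (hne g hg))⟩
  rcases (mem_zp2 (h.sq a)).1 this with e | e
  · exact h1 e
  · exact h2 e

theorem swap (a : A p q) : ∃ g ∈ gQ p, g * q * g⁻¹ = p * q :=
  h.swapU a (h.memU a) (h.ne1' a) (h.ne a).symm

theorem TI (a : A p q) (b : A p s) (hs : s ∉ ln p q) : St p q ⊓ St p s ≤ gQ p := by
  have hQ : gQ p ≤ St p q ⊓ St p s := le_inf (h.Q_le_St a) (h.Q_le_St b)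
  obtain ⟨m, hm⟩ := card_dvd_of_le hQ
  rw [h.cQ a] at hm
  have hpos : 0 < Nat.card (St p q ⊓ St p s : Subgroup G) := Nat.card_pos
  by_cases h1 : m = 1
  · exact le_of_card_le hQ (by rw [hm, h1, h.cQ a])
  have h2 : St p q ≤ 𝒩(St p q ⊓ St p s) := norm_of_half inf_le_left (by rw [h.cS a]; omega)
  have h3 : St p s ≤ 𝒩(St p q ⊓ St p s) := norm_of_half inf_le_right (by rw [h.cS b]; omega)
  rcases h.St_max a (K := 𝒵(p) ⊓ 𝒩(St p q ⊓ St p s)) (le_inf (St_le p q) h2) inf_le_left with e | e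
  · exfalso
    have e1 : St p s = St p q :=
      eq_of_le_of_card_ge ((le_inf (St_le p s) h3).trans e) (by rw [h.cS a, h.cS b])
    obtain ⟨g, hg, hg'⟩ := h.trans a b
    have hgn : g ∈ 𝒩(St p q) := cj_eq_iff_mem.1 (by rw [cj_St, hg, hg', e1])
    rcases h.St_max a (K := 𝒵(p) ⊓ 𝒩(St p q)) (le_inf (St_le p q) le_normalizer) inf_le_left with e2 | e2
    · exact hs (hg' ▸ ((h.mem_St a).1 (e2 ⟨memZ'.2 hg, hgn⟩)).2)
    · have := card_le_of_le (le_core (St_le p q) (h.isP_St a) (e2.trans inf_le_right))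
      rw [h.cS a] at this
      change _ ≤ Nat.card (gQ p) at this
      rw [h.cQ a] at this
      omega
  · exact le_core (inf_le_left.trans (St_le p q)) ((h.isP_St a).to_le inf_le_left) (e.trans inf_le_right)

/-- an element outside `Q p` fixes at most one line through `p` -/
theorem mem_ln_of_St (a : A p q) (b : A p s) {g : G} (h1 : g ∈ St p q) (h2 : g ∈ St p s) (h3 : g ∉ gQ p) :
    s ∈ ln p q := by
  by_contra hs
  exact h3 (h.TI a b hs ⟨h1, h2⟩)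

theorem mul_ne (a : A p q) : p * q ≠ q := fun e => h.ne1 a (by simpa using e)

theorem card_adj (a : A p q) : {s | A p s}.ncard = 10 := by
  have h1 : orb 𝒵(p) q = {s | A p s} := by
    ext s
    refine ⟨?_, fun b => ?_⟩
    · rintro ⟨g, hg, rfl⟩; exact h.adj_conj a hg
    · obtain ⟨g, hg, hg'⟩ := h.trans a b
      exact ⟨g, memZ'.2 hg, hg'⟩
  have h2 : orb (St p q) q = {q, p * q} := by
    ext s
    refine ⟨?_, ?_⟩
    · rintro ⟨g, hg, rfl⟩; exact h.St_cases a hg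
    · rintro (rfl | rfl)
      · exact ⟨1, one_mem _, by simp⟩
      · obtain ⟨g, hg, e⟩ := h.swap a
        exact ⟨g, h.Q_le_St a hg, e⟩
  have h3 : St p q ⊓ 𝒵(q) = 𝒵(p) ⊓ 𝒵(q) :=
    le_antisymm (inf_le_inf_right _ (St_le p q)) fun g hg => ⟨h.mem_St_of_Z a hg.1 hg.2, hg.2⟩
  have h4 := card_orb (St p q) q
  have h5 := card_orb 𝒵(p) q
  rw [h2, h3, Set.ncard_pair (h.mul_ne a).symm, h.cS a] at h4
  rw [h1, h.cC a] at h5
  have h6 : Nat.card (𝒵(p) ⊓ 𝒵(q) : Subgroup G) = 1024 := by omega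
  rw [h6] at h5
  omega

theorem card_off (a : A p q) : {s | A p s ∧ s ∉ ln p q}.ncard = 8 := by
  have h1 : {s | A p s ∧ s ∉ ln p q} = {s | A p s} \ {q, p * q} := by
    ext s
    refine ⟨fun ⟨b, hs⟩ => ⟨b, ?_⟩, fun ⟨b, hs⟩ => ⟨b, fun e => hs (h.eq_of_mem_ln a b e)⟩⟩
    rintro (rfl | rfl)
    · exact hs (right_mem_ln _ _)
    · exact hs (mul_mem_ln _ _)
  have h2 : ({q, p * q} : Set G) ⊆ {s | A p s} := by
    rintro _ (rfl | rfl)
    · exact a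
    · exact h.mul a
  rw [h1, Set.ncard_sdiff h2, h.card_adj a, Set.ncard_pair (h.mul_ne a).symm]

theorem card_QZ (a : A p q) {u : G} (hu : u ∈ U p) (h1 : u ≠ 1) (h2 : u ≠ p) :
    Nat.card (gQ p ⊓ 𝒵(u) : Subgroup G) = 256 := by
  have h3 : orb (gQ p) u = {u, p * u} := by
    ext s
    refine ⟨?_, ?_⟩
    · rintro ⟨g, hg, rfl⟩; exact h.QU a hg hu
    · rintro (rfl | rfl)
      · exact ⟨1, one_mem _, by simp⟩
      · exact h.swapU a hu h1 h2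
  have h4 := card_orb (gQ p) u
  rw [h3, Set.ncard_pair (fun e => h.ne1 a (by simpa using e)), h.cQ a] at h4
  omega

theorem transSt (a : A p q) (b : A p s) (hs : s ∉ ln p q) {s' : G} (b' : A p s') (hs' : s' ∉ ln p q) :
    ∃ g ∈ St p q, g * s * g⁻¹ = s' := by
  have h1 : orb (St p q) s ⊆ {s | A p s ∧ s ∉ ln p q} := by
    rintro _ ⟨g, hg, rfl⟩
    exact ⟨h.adj_conj b hg.2, fun e => hs (by simpa [mul_assoc] using conj_mem' hg.1 e)⟩
  have h2 : St p q ⊓ 𝒵(s) ≤ gQ p ⊓ 𝒵(s) := fun g hg =>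
    ⟨h.TI a b hs ⟨hg.1, h.mem_St_of_Z b hg.1.2 hg.2⟩, hg.2⟩
  have h3 := card_le_of_le h2
  rw [h.card_QZ a (h.memU b) (h.ne1' b) (h.ne b).symm] at h3
  have h4 := card_orb (St p q) s
  rw [h.cS a] at h4
  have h5 := Nat.mul_le_mul_left (orb (St p q) s).ncard h3
  have h6 := Set.eq_of_subset_of_ncard_le h1 (by rw [h.card_off a]; omega)
  exact (h6.ge ⟨b', hs'⟩ : s' ∈ orb (St p q) s)

theorem ex_off {q1 q2 q3 : G} (a1 : A p q1) (a2 : A p q2) (a3 : A p q3) :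
    ∃ s, A p s ∧ s ∉ ln p q1 ∧ s ∉ ln p q2 ∧ s ∉ ln p q3 := by
  by_contra hne
  have h1 : {s | A p s ∧ s ∉ ln p q1} ⊆ {q2, p * q2, q3, p * q3} := by
    rintro s ⟨b, hs⟩
    by_cases h2 : s ∈ ln p q2
    · rcases h.eq_of_mem_ln a2 b h2 with e | e <;> simp [e]
    by_cases h3 : s ∈ ln p q3
    · rcases h.eq_of_mem_ln a3 b h3 with e | e <;> simp [e]
    exact absurd ⟨s, b, hs, h2, h3⟩ hne
  have h2 := Set.ncard_le_ncard h1
  have h3 := Set.ncard_insert_le q2 {p * q2, q3, p * q3}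
  have h4 := Set.ncard_insert_le (p * q2) {q3, p * q3}
  have h5 := Set.ncard_insert_le q3 {p * q3}
  rw [h.card_off a1] at h2
  rw [Set.ncard_singleton] at h5
  omega

theorem cyc (a : A p q) : ∃ g ∈ St p q, g * g ∉ gQ p := by
  by_contra hne
  push Not at hne
  have hall : ∀ {s : G}, A p s → ∀ g ∈ St p s, g * g ∈ gQ p := fun {s} b g hg => by
    obtain ⟨k, hk, hk'⟩ := h.trans a b
    rw [← hk, ← hk', ← cj_St, mem_cj] at hg
    rw [← hk, ← cj_gQ, mem_cj]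
    simpa [mul_assoc] using hne _ hg
  obtain ⟨q1, a1, h1, -, -⟩ := h.ex_off a a a
  obtain ⟨q3, a3, h3, h3', -⟩ := h.ex_off a a1 a
  obtain ⟨q4, a4, h4, h4', h4''⟩ := h.ex_off a a1 a3
  obtain ⟨x, hx, ex⟩ := h.transSt a a3 h3 a4 h4
  obtain ⟨y, hy, ey⟩ := h.transSt a1 a3 h3' a4 h4'
  have key : ∀ {g : G}, g ∈ 𝒵(p) → g * g ∈ gQ p → g * q3 * g⁻¹ = q4 → cj g (ln p q4) = ln p q3 := by
    intro g hg hgg e
    have := cj_eq (h.Q_le_St a3 hgg).1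
    rwa [cj_mul, cj_ln g p q3, memZ'.1 hg, e] at this
  have k1 := key hx.2 (hall a x hx) ex
  have k2 := key hy.2 (hall a1 y hy) ey
  have hz : y⁻¹ * x ∈ 𝒵(p) := mul_mem (inv_mem hy.2) hx.2
  have m3 : y⁻¹ * x ∈ St p q3 := h.mem_St_of_Z a3 hz (memZ'.2 (by
    calc y⁻¹ * x * q3 * (y⁻¹ * x)⁻¹ = y⁻¹ * (x * q3 * x⁻¹) * y := by group
      _ = q3 := by rw [ex, ← ey]; group))
  have m4 : y⁻¹ * x ∈ St p q4 := ⟨cj_eq_iff_mem.1 (by rw [cj_mul, k1, ← k2, cj_inv_cj]), hz⟩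
  have m5 := h.Q_le_St a1 (h.TI a3 a4 h4'' ⟨m3, m4⟩)
  have m6 : x ∈ St p q1 := by simpa using mul_mem hy m5
  have m7 := h.Q_le_St a3 (h.TI a a1 h1 ⟨hx, m6⟩)
  exact h4'' (ex ▸ ((h.mem_St a3).1 m7).2)

/-- `St p q / Q p` has a unique involution -/
theorem UI (a : A p q) {t1 t2 : G} (h1 : t1 ∈ St p q) (h2 : t2 ∈ St p q) (n1 : t1 ∉ gQ p) (n2 : t2 ∉ gQ p)
    (s1 : t1 * t1 ∈ gQ p) (s2 : t2 * t2 ∈ gQ p) : t1 * t2 ∈ gQ p := by
  obtain ⟨g, hg, hgg⟩ := h.cyc a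
  have key : ∀ {t : G}, t ∈ St p q → t ∉ gQ p → t * t ∈ gQ p → g * g * t ∈ gQ p := by
    intro t ht nt st
    have hle : gQ p ⊔ zpowers t ≤ St p q := sup_le (h.Q_le_St a) (zpowers_le.2 ht)
    obtain ⟨m, hm⟩ := card_dvd_of_le (le_sup_left : gQ p ≤ gQ p ⊔ zpowers t)
    have hpos : 0 < Nat.card (gQ p ⊔ zpowers t : Subgroup G) := Nat.card_pos
    have hm1 : m ≠ 1 := fun e => nt (le_of_card_le (le_sup_left : gQ p ≤ gQ p ⊔ zpowers t)
      (by rw [hm, e, mul_one]) (mem_sup_right (mem_zpowers t)))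
    rw [h.cQ a] at hm
    have hgT : g * g ∈ gQ p ⊔ zpowers t := by
      by_cases e : g ∈ gQ p ⊔ zpowers t
      · exact mul_mem e e
      · exact mul_mem_half hle (by rw [h.cS a]; omega) hg hg e e
    obtain ⟨x, hx, y, hy, e⟩ := (mem_sup_nl (zpowers_le.2 (self_le_norm_core _ ht.2))).1 hgT
    rcases zp_mod st hy with e1 | e1
    · exact absurd (e ▸ mul_mem hx e1) hgg
    · rw [← e, mul_assoc]; exact mul_mem hx e1
  have := mul_mem s1 (mul_mem (inv_mem (key h1 n1 s1)) (key h2 n2 s2))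
  simpa [mul_assoc] using this

theorem Ieq (a : A p q) (b : A p s) (hs : s ∈ ln p q) : U p ⊓ U q ≤ U s := by
  rcases h.eq_of_mem_ln a b hs with rfl | rfl
  · exact inf_le_right
  · intro u hu
    obtain ⟨g, hg, e⟩ := h.swap a
    have h1 := h.conjU (g := g) hu.2
    rw [e] at h1
    rcases h.QU a hg hu.1 with e1 | e1 <;> rw [e1] at h1
    · exact h1
    · exact (mul_mem_cancel_left (h.memU (h.symm b))).1 h1

theorem IleU (a : A p q) (hs : s ∈ ln p q) (h1 : s ≠ 1) : U p ⊓ U q ≤ U s := by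
  by_cases h2 : s = p
  · rw [h2]; exact inf_le_left
  · exact h.Ieq a (h.adj_of_mem a hs h1 h2) hs

theorem Ieq' (a : A p q) {p' q' : G} (b : A p' q') (hp : p' ∈ ln p q) (hq : q' ∈ ln p q) :
    U p' ⊓ U q' = U p ⊓ U q :=
  (eq_of_le_of_card_ge (le_inf (h.IleU a hp (h.ne1 b)) (h.IleU a hq (h.ne1' b)))
    (by rw [h.cI a, h.cI b])).symm

theorem Deq (a : A p q) (b : A p s) (hs : s ∈ ln p q) : U p ⊓ gQ q ≤ gQ s := by
  rcases h.eq_of_mem_ln a b hs with rfl | rfl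
  · exact inf_le_right
  · intro u hu
    obtain ⟨g, hg, e⟩ := h.swap a
    have h1 := conj_mem_cj g hu.2
    rw [cj_gQ, e] at h1
    rcases h.QU a hg hu.1 with e1 | e1 <;> rw [e1] at h1
    · exact h1
    · exact (mul_mem_cancel_left (h.U_le_Q (h.symm b) (h.memU (h.symm b)))).1 h1

theorem exA (a : A p q) : ∃ x ∈ U p, x ∉ gQ q := by
  obtain ⟨x, hx, hx'⟩ := exists_not_mem (K := U p ⊓ gQ q) (H := U p) (by rw [h.cD a, h.cU a]; norm_num)
  exact ⟨x, hx, fun e => hx' ⟨hx, e⟩⟩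

/-- points at distance two from `q` are not in `Q q` -/
theorem L7 (a : A p q) (b : A p s) (hs : s ∉ ln p q) : s ∉ gQ q := by
  intro hQ
  obtain ⟨x, hx, hx'⟩ := h.exA a
  refine hx' ((h.Ule a _).2 (fun s' b' => ?_) hx)
  by_cases hs' : s' ∈ ln p q
  · exact h.U_le_Q (h.symm a) (h.ln_le_U' a hs')
  · obtain ⟨g, hg, e⟩ := h.transSt a b hs b' hs'
    have h1 := conj_mem_cj g hQ
    rw [cj_gQ, e] at h1
    have c := h.adj_conj a hg.2
    exact h.Deq c a (h.mem_ln_symm a c ((h.mem_St a).1 hg).2) ⟨h.memU b', h1⟩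

theorem fixline (a : A p q) {K : Subgroup G} (hK : K ≤ 𝒵(p)) (hP : IsPGroup 2 K) :
    ∃ s, A p s ∧ K ≤ St p s := by
  obtain ⟨c, hc, e⟩ := syl_conj_le (h.sylSt a) hP hK
  rw [cj_le_iff, cj_St, memZ'.1 (inv_mem hc)] at e
  exact ⟨_, h.adj_conj a (inv_mem hc), e⟩

theorem N2 (a : A p q) (b : A p s) (hs : s ∉ ln p q) {x y : G} (hx : x ∈ St p q) (hx' : x ∉ gQ p)
    (hy : y ∈ St p s) (hy' : y ∉ gQ p) {K : Subgroup G} (hK : K ≤ 𝒵(p)) (h1 : x ∈ K) (h2 : y ∈ K) :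
    ∃ x ∈ K, orderOf x = 5 := by
  refine h.x5 a hK fun hP => ?_
  obtain ⟨t, c, e⟩ := h.fixline a hK hP
  have e1 := h.ln_eq' a c (h.mem_ln_of_St a c hx (e h1) hx')
  have e2 := h.ln_eq' b c (h.mem_ln_of_St b c hy (e h2) hy')
  exact hs (e1 ▸ e2 ▸ right_mem_ln p s)

theorem Iint (a : A p q) (b : A p s) (hs : s ∉ ln p q) {y : G} (h0 : y ∈ U p) (h1 : y ∈ U q) (h2 : y ∈ U s) :
    y = 1 ∨ y = p := by
  obtain ⟨x1, hx1, hx1'⟩ := h.exA (h.symm a)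
  obtain ⟨x2, hx2, hx2'⟩ := h.exA (h.symm b)
  obtain ⟨x, hx, h5⟩ := h.N2 a b hs (h.U_le_St a hx1) hx1' (h.U_le_St b hx2) hx2' (K := 𝒵(p) ⊓ 𝒵(y))
    inf_le_left ⟨(h.U_le_St a hx1).2, h.ZU (h.symm a) hx1 h1⟩ ⟨(h.U_le_St b hx2).2, h.ZU (h.symm b) hx2 h2⟩
  exact (mem_zp2 (h.sq a)).1 (h.CUx a hx.1 h5 ⟨h0, memZ_symm hx.2⟩)

end TG0

end CL.NGrp.Tits
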