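/-
Recognition of the Ree group over the field of two elements by the centraliser of a 2-central involution:
the local data and the steps of the proof as propositions.
-/
import Cfsg.Agent.RF2.G2
import Cfsg.Prelude.Def_CaseTheorems
import Cfsg.Prelude.Def_LieTwisted

set_option autoImplicit false
open Cfsg Subgroup CL.Grp CL.Even CL.NGrp CL.NGrp.Tits
open scoped Pointwise commutatorElement

namespace CL.RF2

universe u v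
variable {G : Type*} [Group G]

/-- The data in the Tits group: a path `y, q, z, r` of points and `C0 = C(z)`. -/
structure D0 (G : Type*) [Group G] where
  z : G
  q : G
  r : G
  y : G
  C0 : Subgroup G

/-- The data in the Ree group: `C = C(z)`, two further involutions, roots `x1, x5, x7` of `y, z, r`, and `f` of order 5. -/
structure Dt (G : Type*) [Group G] extends D0 G where
  u4 : G
  u8 : G
  x1 : G
  x5 : G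
  x7 : G
  f : G
  C : Subgroup G

namespace D0
variable (D : D0 G)
def K0 (t : G) : Subgroup G := D.C0 ⊓ 𝒵(t)
/-- generated by the neighbours of `z` -/
def W : Subgroup G := closure {s | ∃ c ∈ D.C0, c * D.q * c⁻¹ = s}
/-- generated by the neighbours of `q` -/
def W3 : Subgroup G := closure {s | s = D.z ∨ s = D.z * D.q ∨ ∃ d ∈ D.K0 D.q, d * D.y * d⁻¹ = s}
def map {H : Type*} [Group H] (φ : G →* H) : D0 H := ⟨φ D.z, φ D.q, φ D.r, φ D.y, D.C0.map φ⟩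
end D0

namespace Dt
variable (D : Dt G)
def K (t : G) : Subgroup G := D.C ⊓ 𝒵(t)
def A0 : Subgroup G := D.K D.q ⊓ 𝒵(D.r)
def map {H : Type*} [Group H] (φ : G →* H) : Dt H :=
  ⟨D.toD0.map φ, φ D.u4, φ D.u8, φ D.x1, φ D.x5, φ D.x7, φ D.f, D.C.map φ⟩
end Dt

/-- facts on `C0` -/
structure FT (D : D0 G) : Prop where
  mz : D.z ∈ D.C0
  mq : D.q ∈ D.C0
  mr : D.r ∈ D.C0
  my : D.y ∈ D.C0
  cC0 : Nat.card D.C0 = 10240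
  zc0 : ∀ c ∈ D.C0, c * D.z = D.z * c
  z2 : D.z * D.z = 1
  z1 : D.z ≠ 1
  q2 : D.q * D.q = 1
  q1 : D.q ≠ 1
  qz : D.q ≠ D.z
  qr : D.q * D.r = D.r * D.q
  qy : D.q * D.y = D.y * D.q
  yr : D.y * D.r ≠ D.r * D.y
  cls0 : ∀ c ∈ D.C0, c * D.q * c⁻¹ = D.q ∨ c * D.q * c⁻¹ = D.z * D.q ∨
    ∃ d ∈ D.K0 D.q, c * D.q * c⁻¹ = d * D.r * d⁻¹
  hq : ∃ c ∈ D.C0, c * D.q * c⁻¹ = D.z * D.q
  rc : ∃ c ∈ D.C0, c * D.q * c⁻¹ = D.r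
  cK0 : Nat.card (D.K0 D.q) = 1024
  cW : Nat.card D.W = 32
  cI : Nat.card (D.W ⊓ D.W3 : Subgroup G) = 8
  cD : Nat.card (D.W3 ⊓ pCoreOf 2 D.C0 : Subgroup G) = 16
  cQ : Nat.card (pCoreOf 2 D.C0) = 512
  abW : ∀ a ∈ D.W, ∀ b ∈ D.W, a * b = b * a
  sqW : ∀ a ∈ D.W, a * a = 1
  cent0 : ∀ c ∈ D.C0, (∀ w ∈ D.W, c * w = w * c) → c ∈ D.W
  cm : ⁅D.W, D.W3⁆ = D.W ⊓ D.W3

/-- facts on `C` -/
structure FC (D : Dt G) : Prop where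
  ft : FT D.toD0
  le0 : D.C0 ≤ D.C
  m4 : D.u4 ∈ D.C0
  m8 : D.u8 ∈ D.C0
  mf : D.f ∈ D.C0
  m1 : D.x1 ∈ D.C
  m5 : D.x5 ∈ D.C
  m7 : D.x7 ∈ D.C
  n1 : D.x1 ∉ D.C0
  n5 : D.x5 ∉ D.C0
  n7 : D.x7 ∉ D.C0
  cC : Nat.card D.C = 20480
  zc : ∀ c ∈ D.C, c * D.z = D.z * c
  Zc : ∀ c ∈ D.C, (∀ d ∈ D.C0, c * d = d * c) → c = 1 ∨ c = D.z
  cls : ∀ t ∈ D.C, t * t = 1 → ∃ c ∈ D.C, c * t * c⁻¹ = 1 ∨ c * t * c⁻¹ = D.z ∨ c * t * c⁻¹ = D.q ∨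
    c * t * c⁻¹ = D.u4 ∨ c * t * c⁻¹ = D.y ∨ c * t * c⁻¹ = D.y * D.z ∨ c * t * c⁻¹ = D.u8
  y2 : D.y * D.y = 1
  cKq : Nat.card (D.K D.q) = 2048
  cK4 : Nat.card (D.K D.u4) = 1024
  cKy : Nat.card (D.K D.y) = 256
  cK8 : Nat.card (D.K D.u8) = 256
  cA0 : Nat.card D.A0 = 256
  g4 : ⁅⁅⁅D.K D.u4, D.K D.u4⁆, D.K D.u4⁆, D.K D.u4⁆ = zpowers D.z
  gy : ⁅⁅D.K D.y, D.K D.y⁆, D.K D.y⁆ = zpowers D.q
  g8 : ⁅⁅D.K D.u8, D.K D.u8⁆, D.K D.u8⁆ = zpowers D.r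
  g0 : ⁅⁅D.A0, D.A0⁆, D.A0⁆ = zpowers D.z
  zy : D.z ∉ ⁅D.K D.y, D.K D.y⁆
  u8m : D.u8 ∈ ⁅D.K D.u8, D.K D.u8⁆
  r0 : D.r ∉ ⁅D.A0, D.A0⁆
  yq : ∃ c ∈ D.C, c * D.y * c⁻¹ = D.y * D.q
  u8r : ∃ c ∈ D.C, c * D.u8 * c⁻¹ = D.u8 * D.r
  rq : ∃ c ∈ D.C, c * (D.r * D.q) * c⁻¹ = D.u4
  s1 : D.x1 * D.x1 = D.y
  s5 : D.x5 * D.x5 = D.z
  s7 : D.x7 * D.x7 = D.r
  x1q : D.x1 * D.q = D.q * D.x1
  x7q : D.x7 * D.q = D.q * D.x7
  x5y : D.x5 * D.y = D.y * D.x5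
  x5W : ∀ w ∈ D.W, D.x5 * w = w * D.x5
  genC : D.C = closure {D.x1, D.f * D.x1 * D.f⁻¹, D.x5, D.x7}
  genQ : D.K D.q = closure {D.x1, D.x5, D.x7}
  Kyq : D.K D.y ≤ D.K D.q
  f5 : D.f ^ 5 = 1
  f1 : D.f ≠ 1
  xf : D.x1 * D.f * D.x1⁻¹ = D.f ^ 2
  clsf : ∀ c ∈ D.C, ∃ i : ℕ, c * D.q * c⁻¹ = D.f ^ i * D.q * (D.f ^ i)⁻¹ ∨
    c * D.q * c⁻¹ = D.z * (D.f ^ i * D.q * (D.f ^ i)⁻¹)
  centC : ∀ c ∈ D.C, (∀ w ∈ D.W, c * w = w * c) → c ∈ D.W ∨ D.x5⁻¹ * c ∈ D.W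
  cent3 : ∀ c ∈ D.C0, (∀ w ∈ D.W3, c * w = w * c) → c * c = 1
  ny : ∀ k ∈ D.C0, k * k ≠ D.y
  nr : ∀ k ∈ D.K0 D.q, k * k ≠ D.r
  n8 : ∀ k ∈ D.C, k * k ≠ D.u8

theorem FT.qW {D : D0 G} : D.q ∈ D.W := subset_closure ⟨1, one_mem _, by simp⟩

theorem FT.rW {D : D0 G} (h : FT D) : D.r ∈ D.W := subset_closure h.rc

theorem FT.zW {D : D0 G} (h : FT D) : D.z ∈ D.W := by
  have := mul_mem (subset_closure h.hq : D.z * D.q ∈ D.W) (inv_mem (FT.qW (D := D)))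
  rwa [mul_inv_cancel_right] at this

namespace FC
variable {D : Dt G} (h : FC D)
include h

theorem idx0 : D.C0.relIndex D.C = 2 := by
  have := (D.C0.subgroupOf D.C).card_mul_index
  rw [Nat.card_congr (subgroupOfEquivOfLe h.le0).toEquiv, h.ft.cC0, h.cC] at this
  change 10240 * D.C0.relIndex D.C = _ at this
  omega

/-- `C0` has index two in `C` -/
theorem mul0 {a b : G} (ha : a ∈ D.C) (hb : b ∈ D.C) : a * b ∈ D.C0 ↔ (a ∈ D.C0 ↔ b ∈ D.C0) :=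
  mul_mem_iff_of_index_two (H := D.C0.subgroupOf D.C) h.idx0 (a := ⟨a, ha⟩) (b := ⟨b, hb⟩)

theorem conj0 {c t : G} (hc : c ∈ D.C) (ht : t ∈ D.C) : c * t * c⁻¹ ∈ D.C0 ↔ t ∈ D.C0 := by
  rw [h.mul0 (mul_mem hc ht) (inv_mem hc), h.mul0 hc ht, inv_mem_iff]; tauto

theorem x5q : D.x5 * D.q = D.q * D.x5 := h.x5W _ FT.qW

theorem x5r : D.x5 * D.r = D.r * D.x5 := h.x5W _ h.ft.rW

/-- conjugation of an element centralised by `x5`: `C0` suffices -/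
theorem to0 {c t : G} (hc : c ∈ D.C) (ht : D.x5 * t = t * D.x5) :
    ∃ d ∈ D.C0, (d = c ∨ d = c * D.x5) ∧ d * t * d⁻¹ = c * t * c⁻¹ := by
  by_cases e : c ∈ D.C0
  · exact ⟨c, e, .inl rfl, rfl⟩
  · refine ⟨c * D.x5, (h.mul0 hc h.m5).2 (iff_of_false e h.n5), .inr rfl, ?_⟩
    rw [mul_assoc c, ht]; group

theorem conjW {c : G} (hc : c ∈ D.C) : c * D.q * c⁻¹ ∈ D.W := by
  obtain ⟨d, hd, -, e⟩ := h.to0 hc h.x5q
  exact subset_closure ⟨d, hd, e⟩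

theorem cls1 {c : G} (hc : c ∈ D.C) : c * D.q * c⁻¹ = D.q ∨ c * D.q * c⁻¹ = D.z * D.q ∨
    ∃ d ∈ D.K0 D.q, c * D.q * c⁻¹ = d * D.r * d⁻¹ := by
  obtain ⟨d, hd, -, e⟩ := h.to0 hc h.x5q
  exact e ▸ h.ft.cls0 d hd

end FC

/-- transport along injective homomorphisms and restriction to subgroups -/
def MapThm : Prop :=
  (∀ (G : Type u) (H : Type v) [Group G] [Group H] (φ : G →* H), Function.Injective φ →
    ∀ D : Dt G, FC D → FC (D.map φ)) ∧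
  (∀ (G : Type u) [Group G] (K : Subgroup G) (D : Dt G), FC D → D.C ≤ K → ∃ D' : Dt K, FC D' ∧ D'.map K.subtype = D) ∧
  ∀ (G : Type u) [Group G] (K : Subgroup G) (D : D0 G), FT D → D.C0 ≤ K → ∃ D' : D0 K, FT D' ∧ D'.map K.subtype = D

/-- step 1: `C` is the whole centraliser -/
def S1Thm : Prop :=
  ∀ (G : Type u) [Group G] [Finite G] (D : Dt G), FC D → (D.C.subgroupOf (centralizer ({D.z} : Set G))).Normal →
    Odd (D.C.relIndex (centralizer ({D.z} : Set G))) → oddCore (centralizer ({D.z} : Set G)) = ⊥ → 𝒵(D.z) = D.C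

/-- step 2: fusion -/
def FuThm : Prop :=
  ∀ (G : Type u) [Group G] [Finite G] (D : Dt G), FC D → 𝒵(D.z) = D.C → (∀ g : G, g * D.z * g⁻¹ ≠ D.u4) ∧
    ((∃ g : G, g * D.z * g⁻¹ ∈ D.C ∧ g * D.z * g⁻¹ ≠ D.z) →
      ∃ n : G, n * D.z * n⁻¹ = D.q ∧ n * D.q * n⁻¹ = D.z ∧ (n * D.r * n⁻¹ = D.y ∨ n * D.r * n⁻¹ = D.y * D.z))

/-- step 3: transfer -/
def TrThm : Prop :=
  ∀ (G : Type u) [Group G] [Finite G] (D : Dt G) (n : G), FC D → 𝒵(D.z) = D.C → Odd D.C.index →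
    (∀ g : G, g * D.z * g⁻¹ ≠ D.u4) → n * D.z * n⁻¹ = D.q → n * D.q * n⁻¹ = D.z → n * D.r * n⁻¹ = D.y →
      ∃ T : Subgroup G, T.Normal ∧ T.index = 2 ∧ T ⊓ D.C = D.C0

/-- step 4: the geometry -/
def TgThm : Prop :=
  ∀ (G : Type u) [Group G] [Finite G] (D : D0 G) (n : G), FT D → 𝒵(D.z) = D.C0 →
    n * D.z * n⁻¹ = D.q → n * D.q * n⁻¹ = D.z → n * D.r * n⁻¹ = D.y →
      ∃ (U : G → Subgroup G) (A : G → G → Prop), TG0 U A ∧ A D.z D.q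

/-- step 5: the geometry determines the group -/
def IdThm : Prop :=
  ∀ (G : Type u) [Group G] [Finite G] (U : G → Subgroup G) (A : G → G → Prop) (p q : G), TG0 U A → A p q →
    Lie.IsoTits G

/-- step 6: the extension of degree two -/
def AutThm : Prop :=
  ∀ (G : Type u) [Group G] [Finite G] (T : Subgroup G), T.Normal → T.index = 2 → 𝒞(T) = ⊥ → Lie.IsoTits T →
    Nonempty (G ≃* Lie.twistedF4 (ZMod 2) 1)

/-- the model -/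
def ModThm : Prop :=
  ∃ D D' : Dt (Lie.twistedF4 (ZMod 2) 1), FC D ∧ FC D' ∧ 𝒵(D.z) = D.C ∧ D'.C = D.C ∧ D'.z = D.z ∧ D'.q = D.q ∧
    D'.r = D.r ∧ D'.y = D.y * D.z ∧
    ∀ (U : Sylow 2 (Lie.twistedF4 (ZMod 2) 1)) (t : Lie.twistedF4 (ZMod 2) 1), orderOf t = 2 →
      (∀ u ∈ (U : Subgroup (Lie.twistedF4 (ZMod 2) 1)), u * t = t * u) → ∃ g, g * t * g⁻¹ = D.z

/-- the theorem for `q = 2` -/
def TwoThm : Prop :=
  ∀ {G : Type u} [Group G] [Finite G] (τ : G), orderOf τ = 2 → ∀ (S : Sylow 2 G), τ ∈ (S : Subgroup G) →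
    (∀ s ∈ (S : Subgroup G), s * τ = τ * s) →
    ∀ {K : Type v} [Field K] [Fintype K], Fintype.card K = 2 ^ (2 * 0 + 1) →
    ∀ (U : Sylow 2 (Lie.twistedF4 K (2 ^ 0))) (z : Lie.twistedF4 K (2 ^ 0)), orderOf z = 2 →
    (∀ u ∈ (U : Subgroup (Lie.twistedF4 K (2 ^ 0))), u * z = z * u) →
    ∀ (C : Subgroup G), C ≤ centralizer ({τ} : Set G) → (C.subgroupOf (centralizer ({τ} : Set G))).Normal →
    Odd (C.relIndex (centralizer ({τ} : Set G))) →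
    (C ≃* centralizer ({z} : Set (Lie.twistedF4 K (2 ^ 0)))) → oddCore (centralizer ({τ} : Set G)) = ⊥ →
    oddCore G ⊔ C = ⊤ ∨ Nonempty (G ≃* Lie.twistedF4 K (2 ^ 0))

end CL.RF2
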