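/-
Recognition of the Ree group over the field of two elements: assembly (job ASM).
-/
import Cfsg.Agent.RF2.Defs
import Cfsg.Agent.S0215
import Cfsg.Agent.S1074
import Cfsg.Agent.RuR.LiftA

set_option autoImplicit false
open Cfsg Subgroup CL.Grp CL.Even CL.NGrp CL.NGrp.Tits
open scoped Pointwise commutatorElement

namespace CL.RF2

universe u v

namespace Asm

variable {G : Type u} [Group G] [Finite G]

theorem fin (hm : MapThm.{u, u}) (h2 : FuThm.{u}) (h3 : TrThm.{u}) (h4 : TgThm.{u}) (h5 : IdThm.{u}) (h6 : AutThm.{u})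
    {F : Dt G} (f : FC F) (hZ : 𝒵(F.z) = F.C) (ho : Odd F.C.index) {n : G} (e1 : n * F.z * n⁻¹ = F.q)
    (e2 : n * F.q * n⁻¹ = F.z) (e3 : n * F.r * n⁻¹ = F.y) : Nonempty (G ≃* Lie.twistedF4 (ZMod 2) 1) := by
  obtain ⟨T, hn, hi, hT⟩ := h3 G F n f hZ ho (h2 G F f hZ).1 e1 e2 e3
  have h0 : F.C0 ≤ T := hT.ge.trans inf_le_left
  obtain ⟨m, hm', e1, e2, e3⟩ : ∃ m ∈ T, m * F.z * m⁻¹ = F.q ∧ m * F.q * m⁻¹ = F.z ∧ m * F.r * m⁻¹ = F.y := by
    by_cases h : n ∈ T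
    · exact ⟨n, h, e1, e2, e3⟩
    have k : ∀ t, F.x5 * t = t * F.x5 → n * F.x5 * t * (n * F.x5)⁻¹ = n * t * n⁻¹ := fun t e => by
      rw [mul_assoc n, e]; group
    exact ⟨n * F.x5, (mul_mem_iff_of_index_two hi).2 (iff_of_false h fun h => f.n5 (hT.le ⟨h, f.m5⟩)),
      (k _ (f.zc _ f.m5)).trans e1, (k _ f.x5q).trans e2, (k _ f.x5r).trans e3⟩
  obtain ⟨D, d, e⟩ := hm.2.2 G T F.toD0 f.ft h0
  have ez : (D.z : G) = F.z := congrArg D0.z e
  have eq : (D.q : G) = F.q := congrArg D0.q e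
  have er : (D.r : G) = F.r := congrArg D0.r e
  have ey : (D.y : G) = F.y := congrArg D0.y e
  have eC : D.C0.map T.subtype = F.C0 := congrArg D0.C0 e
  obtain ⟨U, A, t, a⟩ := h4 T D ⟨m, hm'⟩ d (by
      ext x
      rw [memZ, Subtype.ext_iff, coe_mul, coe_mul, ez, ← memZ, hZ, ← mem_map_iff_mem T.subtype_injective, eC, ← hT]
      exact ⟨fun h => ⟨x.2, h⟩, fun h => h.2⟩)
    (Subtype.ext (by rw [eq, ← e1, ← ez]; rfl)) (Subtype.ext (by rw [ez, ← e2, ← eq]; rfl))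
    (Subtype.ext (by rw [ey, ← e3, ← er]; rfl))
  refine h6 G T hn hi (eq_bot_iff.2 fun c hc => mem_bot.2 ?_) (h5 T U A _ _ t a)
  refine (f.Zc c (hZ.le (memZ_of_cent hc (h0 f.ft.mz))) fun x hx => (comm_of_mem hc (h0 hx)).symm).resolve_right fun e => ?_
  exact f.ft.qz (by rw [← e1, ← e, comm_of_mem hc hm', mul_inv_cancel_right])

theorem core (hm : MapThm.{u, u}) (h2 : FuThm.{u}) (h3 : TrThm.{u}) (h4 : TgThm.{u}) (h5 : IdThm.{u}) (h6 : AutThm.{u})
    {E E' : Dt G} (f : FC E) (f' : FC E') (eC : E'.C = E.C) (ez : E'.z = E.z) (eq : E'.q = E.q) (er : E'.r = E.r)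
    (ey : E'.y = E.y * E.z) (hZ : 𝒵(E.z) = E.C) (S : Sylow 2 G) (hz : E.z ∈ (S : Subgroup G))
    (hS : ∀ s ∈ (S : Subgroup G), s * E.z = E.z * s) :
    oddCore G ⊔ E.C = ⊤ ∨ Nonempty (G ≃* Lie.twistedF4 (ZMod 2) 1) := by
  have hSC : (S : Subgroup G) ≤ E.C := fun s hs => hZ.le (memZ.2 (hS s hs))
  have ho : Odd E.C.index := Nat.not_even_iff_odd.1 fun h => S.not_dvd_index (h.two_dvd.trans (index_dvd_of_le hSC))
  by_cases h : ∃ g : G, g * E.z * g⁻¹ ∈ E.C ∧ g * E.z * g⁻¹ ≠ E.z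
  · obtain ⟨n, e1, e2, e3 | e3⟩ := (h2 G E f hZ).2 h
    · exact .inr (fin hm h2 h3 h4 h5 h6 f hZ ho e1 e2 e3)
    · exact .inr (fin hm h2 h3 h4 h5 h6 f' (by rw [ez, eC, hZ]) (eC ▸ ho) (n := n) (by rw [ez, eq, e1]) (by rw [ez, eq, e2])
        (by rw [er, ey, e3]))
  push Not at h
  obtain ⟨N, hn, hN, k⟩ := Cfsg.Agent.S0215.result S E.z (orderOf_eq_prime (by rw [sq, f.ft.z2]) f.ft.z1) hz
    fun g hg => h g (hSC hg)
  refine .inl (eq_top_iff.2 fun g _ => ?_)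
  obtain ⟨o, ho, e⟩ := CL.RuR.Lift.conj_of_odd hN f.ft.z2 (b := g * E.z * g⁻¹) (by rw [conj_mul, f.ft.z2]; simp) (by
    simpa [inv_eq_of_mul_eq_one_left f.ft.z2, mul_assoc] using k g)
  rw [← mul_inv_cancel_left o g]
  refine mul_mem (mem_sup_left (le_pPrimeCore (Nat.coprime_two_right.2 hN) ho)) (mem_sup_right (hZ.le (memZ'.2 ?_)))
  rw [show o⁻¹ * g * E.z * (o⁻¹ * g)⁻¹ = o⁻¹ * (g * E.z * g⁻¹) * o by group, ← e]; group

omit [Finite G] in
theorem exists_hom {X Y : Type*} [Group X] [Group Y] {A : Subgroup X} {B : Subgroup Y} (ε : A ≃* B) {z : A} {g w : B}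
    (hg : g * ε z * g⁻¹ = w) {Z : Subgroup B} (hZ : 𝒵(w) = Z) {C : Subgroup G} (e : C ≃* centralizer ({z} : Set A)) :
    ∃ φ : Z →* G, Function.Injective φ ∧ φ.range = C := by
  let ε' := ε.trans (MulAut.conj g)
  have h : (centralizer {z}).map (ε' : A →* B) = Z := Subgroup.ext fun x => mem_map_equiv.trans (by
    rw [← hZ, memZ, ← hg, mem_centralizer_singleton_iff, ← ε'.injective.eq_iff, map_mul, map_mul, ε'.apply_symm_apply]
    rfl)
  let χ := (e.trans (ε'.subgroupMap _)).trans (MulEquiv.subgroupCongr h)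
  exact ⟨C.subtype.comp χ.symm.toMonoidHom, C.subtype_injective.comp χ.symm.injective, by
    rw [MonoidHom.range_comp, MonoidHom.range_eq_top.2 χ.symm.surjective, ← MonoidHom.range_eq_map, range_subtype]⟩

theorem comm_of {X Y' : Type*} [Group X] [Group Y'] [IsSimpleGroup X] {Y : Subgroup Y'} (e : X ≃* Y)
    (h : (commutator Y).index = 2) :
    IsMulCommutative X := by
  have := e.symm.isSimpleGroup
  rcases (inferInstance : (commutator Y).Normal).eq_bot_or_eq_top with e' | e'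
  · exact ⟨⟨fun a b => e.injective (by
      rw [map_mul, map_mul, ← commutatorElement_eq_one_iff_mul_comm]
      exact mem_bot.1 (e'.le (commutator_mem_commutator (mem_top _) (mem_top _))))⟩⟩
  · rw [e', index_top] at h
    omega

end Asm

open Asm

theorem two_of (hm0 : MapThm.{0, u}) (hm : MapThm.{u, u}) (h1 : S1Thm.{u}) (h2 : FuThm.{u}) (h3 : TrThm.{u}) (h4 : TgThm.{u})
    (h5 : IdThm.{u}) (h6 : AutThm.{u}) (hM : ModThm)
    (hε : ∀ (K : Type v) [Field K] [Fintype K], Fintype.card K = 2 ^ (2 * 0 + 1) →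
      Nonempty (Lie.twistedF4 K (2 ^ 0) ≃* Lie.twistedF4 (ZMod 2) 1)) : TwoThm.{u, v} := by
  intro G _ _ τ hτ S hτS hS K _ _ hK U z hz hU C hC hn ho e hO
  obtain ⟨ε⟩ := hε K hK
  obtain ⟨D, D', d, d', hZ, eC, ez, eq, er, ey, hD⟩ := hM
  obtain ⟨g, hg⟩ := hD (U.comapOfInjective ε.symm.toMonoidHom ε.symm.injective fun x _ => ε.symm.surjective x) (ε z)
    (by rw [MulEquiv.orderOf_eq, hz]) fun u hu => ε.symm.injective (by
      rw [map_mul, map_mul, ε.symm_apply_apply]; exact hU _ hu)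
  obtain ⟨φ, hφ, hr⟩ := exists_hom ε hg hZ e
  obtain ⟨E, f, e0⟩ := hm0.2.1 _ D.C D d le_rfl
  obtain ⟨E', f', e0'⟩ := hm0.2.1 _ D.C D' d' eC.le
  have top : ∀ X : Subgroup D.C, X.map D.C.subtype = D.C → X.map φ = C := fun X h => by
    rw [map_injective D.C.subtype_injective (h.trans (D.C.range_subtype.symm.trans (MonoidHom.range_eq_map _))), ← MonoidHom.range_eq_map, hr]
  have c : (E.map φ).C = C := top _ (congrArg Dt.C e0)
  have c' : (E'.map φ).C = C := top _ ((congrArg Dt.C e0').trans eC)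
  have F := hm0.1 _ _ φ hφ E f
  have hτ2 : τ * τ = 1 := by rw [← sq, ← hτ, pow_orderOf_eq_one]
  have hτC : τ ∈ C := by
    have h : τ ^ C.relIndex (centralizer {τ}) ∈ C :=
      pow_index_mem (H := C.subgroupOf (centralizer {τ})) ⟨τ, mem_centralizer_singleton_iff.2 rfl⟩
    obtain ⟨k, hk⟩ := ho
    rwa [hk, pow_succ, pow_mul, sq, hτ2, one_pow, one_mul] at h
  obtain rfl : τ = (E.map φ).z := (F.Zc τ (c ▸ hτC) fun x hx =>
    (mem_centralizer_singleton_iff.1 (hC (c ▸ F.le0 hx))).symm).resolve_left fun e => by simp [e] at hτ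
  have kz : (E.z : Lie.twistedF4 (ZMod 2) 1) = D.z := congrArg (fun X : Dt _ => X.z) e0
  have ky : (E.y : Lie.twistedF4 (ZMod 2) 1) = D.y := congrArg (fun X : Dt _ => X.y) e0
  have ky' : E'.y = E.y * E.z := Subtype.ext (by
    rw [coe_mul, kz, ky, ← ey]; exact congrArg (fun X : Dt _ => X.y) e0')
  have key := core hm h2 h3 h4 h5 h6 F (hm0.1 _ _ φ hφ E' f') (c'.trans c.symm)
    (congrArg φ (Subtype.ext ((congrArg (fun X : Dt _ => X.z) e0').trans (ez.trans kz.symm))))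
    (congrArg φ (Subtype.ext ((congrArg (fun X : Dt _ => X.q) e0').trans (eq.trans (congrArg (fun X : Dt _ => X.q) e0).symm))))
    (congrArg φ (Subtype.ext ((congrArg (fun X : Dt _ => X.r) e0').trans (er.trans (congrArg (fun X : Dt _ => X.r) e0).symm))))
    ((congrArg φ ky').trans (map_mul φ E.y E.z))
    (h1 G _ F (c ▸ hn) (c ▸ ho) hO) S hτS hS
  rw [c] at key
  exact key.imp id fun ⟨k⟩ => ⟨k.trans ε.symm⟩

theorem not_simple_of (hε : ∀ (K : Type v) [Field K] [Fintype K], Fintype.card K = 2 ^ (2 * 0 + 1) →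
      Nonempty (Lie.twistedF4 K (2 ^ 0) ≃* Lie.twistedF4 (ZMod 2) 1)) {G : Type u} [Group G] [Finite G] [IsSimpleGroup G]
    (hna : ¬ IsMulCommutative G) {τ : G} (hτ : orderOf τ = 2) {C : Subgroup G} (hC : C ≤ centralizer ({τ} : Set G))
    {K : Type v} [Field K] [Fintype K] (hK : Fintype.card K = 2 ^ (2 * 0 + 1)) :
    ¬ (oddCore G ⊔ C = ⊤ ∨ Nonempty (G ≃* Lie.twistedF4 K (2 ^ 0))) := by
  rintro (h | ⟨⟨e⟩⟩)
  · have h1 : oddCore G = ⊥ := (inferInstance : (oddCore G).Normal).eq_bot_or_eq_top.resolve_right fun e => by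
      have := pPrimeCore_coprime 2 G
      rw [show pPrimeCore 2 G = ⊤ from e, card_top] at this
      exact absurd (this.symm.eq_one_of_dvd (hτ ▸ orderOf_dvd_natCard τ)) (by norm_num)
    rw [h1, bot_sup_eq] at h
    rcases (inferInstance : (center G).Normal).eq_bot_or_eq_top with e | e
    · rw [mem_bot.1 (e.le (mem_center_iff.2 fun g => mem_centralizer_singleton_iff.1 (hC (h.ge (mem_top g))))),
        orderOf_one] at hτ
      omega
    · exact hna ⟨⟨fun a b => mem_center_iff.1 (e.ge (mem_top b)) a⟩⟩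
  · exact hna (comm_of (e.trans (hε K hK).some) Cfsg.Agent.S1074.result.1)

end CL.RF2
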