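/-
Recognition of the Ree group over the field of two elements: fusion.
-/
import Cfsg.Agent.RF2.Defs

set_option autoImplicit false
set_option linter.unusedSectionVars false
open Cfsg Subgroup CL.Grp CL.Even CL.NGrp CL.NGrp.Tits
open scoped Pointwise commutatorElement

namespace CL.RF2

universe u
variable {G : Type*} [Group G]

namespace Fux

theorem zp_eq {g a b : G} (e : cj g (zpowers a) = zpowers b) (hb : b * b = 1) (ha : a ≠ 1) : g * a * g⁻¹ = b :=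
  ((mem_zp2 hb).1 (e ▸ conj_mem_cj g (mem_zpowers a))).resolve_left fun k => ha (conj_eq_one_iff.1 k)

theorem it2 {g a b : G} {X Y : Subgroup G} (e : cj g X = Y) (ha : ⁅⁅X, X⁆, X⁆ = zpowers a) (hb : ⁅⁅Y, Y⁆, Y⁆ = zpowers b)
    (b2 : b * b = 1) (a1 : a ≠ 1) : g * a * g⁻¹ = b :=
  zp_eq (by rw [← ha, ← hb, cj_commutator, cj_commutator, e]) b2 a1

theorem mem2 {g a b : G} {X Y : Subgroup G} (e : cj g X = Y) (k : g * a * g⁻¹ = b) : a ∈ ⁅X, X⁆ ↔ b ∈ ⁅Y, Y⁆ := by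
  rw [← e, ← cj_commutator, mem_cj, ← k]; simp [mul_assoc]

variable {D : Dt G} (h : FC D) (hz : 𝒵(D.z) = D.C)
include h

theorem r2 : D.r * D.r = 1 := by
  obtain ⟨c, -, e⟩ := h.ft.rc
  rw [← e, conj_mul, h.ft.q2]; group

theorem r1 : D.r ≠ 1 := fun k => h.ft.yr (by rw [k, mul_one, one_mul])

theorem cz {c : G} (hc : c ∈ D.C) : c * D.z * c⁻¹ = D.z := by rw [h.zc c hc, mul_inv_cancel_right]

theorem ne_z {t : G} (k : Nat.card (D.K t) ≠ 20480) : t ≠ D.z := by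
  rintro rfl
  exact k (by rw [Dt.K, inf_eq_left.2 fun c hc => memZ.2 (h.zc c hc), h.cC])

theorem Kyz {t : G} (ht : t = D.y ∨ t = D.y * D.z) : D.K t = D.K D.y := by
  rcases ht with rfl | rfl
  · rfl
  ext c
  refine and_congr_right fun hc => ?_
  change c ∈ 𝒵(_) ↔ c ∈ 𝒵(_)
  rw [memZ', memZ', ← conj_mul, cz h hc, mul_left_inj]

theorem cjC {c : G} (hc : c ∈ D.C) (t : G) : cj c (D.K t) = D.K (c * t * c⁻¹) := by
  rw [Dt.K, cj_inf, cj_Z, cj_eq (le_normalizer hc), Dt.K]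

theorem zq (k : IsConj D.z (D.z * D.q)) : IsConj D.z D.q := by
  obtain ⟨c, -, e⟩ := h.ft.hq
  exact k.trans (isConj_iff.2 ⟨c, e⟩).symm

include hz

theorem sym {t : G} (ht : t ∈ D.C) (tz : t ≠ D.z) (p : IsConj D.z t) : ∃ g s,
    (s = D.q ∨ s = D.u4 ∨ (s = D.y ∨ s = D.y * D.z) ∨ s = D.u8) ∧ g * D.z * g⁻¹ = t ∧ g * s * g⁻¹ = D.z ∧
      cj g (D.K s) = D.K t ∧ Nat.card (D.K s) = Nat.card (D.K t) := by
  obtain ⟨g, rfl⟩ := isConj_iff.1 p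
  have h1 : g⁻¹ * D.z * g ∈ D.C := hz ▸ memZ.2 (by
    calc _ = g⁻¹ * (D.z * (g * D.z * g⁻¹)) * g := by group
      _ = _ := by rw [← h.zc _ ht]; group)
  obtain ⟨c, hc, k⟩ := h.cls _ h1 (by
    rw [show g⁻¹ * D.z * g * (g⁻¹ * D.z * g) = g⁻¹ * (D.z * D.z) * g by group, h.ft.z2]; group)
  have e1 : g * c⁻¹ * D.z * (g * c⁻¹)⁻¹ = g * D.z * g⁻¹ := by
    conv_rhs => rw [← cz h (inv_mem hc)]
    group
  have e2 : g * c⁻¹ * (c * (g⁻¹ * D.z * g) * c⁻¹) * (g * c⁻¹)⁻¹ = D.z := by group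
  generalize c * (g⁻¹ * D.z * g) * c⁻¹ = s at k e2
  have e3 : cj (g * c⁻¹) (D.K s) = D.K (g * D.z * g⁻¹) := by
    rw [Dt.K, Dt.K, ← hz, cj_inf, cj_Z, cj_Z, e1, e2, inf_comm]
  refine ⟨_, s, ?_, e1, e2, e3, by rw [← e3, card_cj]⟩
  rcases k with rfl | rfl | k
  · exact absurd (by rw [← e2]; group) h.ft.z1
  · exact absurd (e1.symm.trans e2) tz
  · tauto

theorem n4 : ¬ IsConj D.z D.u4 := fun p => by
  have a := ne_z h (t := D.u4) (by rw [h.cK4]; decide)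
  obtain ⟨g, s, k, e1, -, e3, e4⟩ := sym h hz (h.le0 h.m4) a p
  rw [h.cK4] at e4
  rcases k with rfl | rfl | k | rfl
  · rw [h.cKq] at e4; omega
  · exact a (e1.symm.trans (zp_eq (by rw [← h.g4, cj_commutator, cj_commutator, cj_commutator, e3]) h.ft.z2 h.ft.z1))
  · rw [Kyz h k, h.cKy] at e4; omega
  · rw [h.cK8] at e4; omega

theorem qp_y {t : G} (ht : t = D.y ∨ t = D.y * D.z) (p : IsConj D.z t) : IsConj D.z D.q := by
  obtain ⟨g, s, k, -, e2, e3, e4⟩ := sym h hz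
    (by rcases ht with rfl | rfl; exacts [h.le0 h.ft.my, h.le0 (mul_mem h.ft.my h.ft.mz)])
    (ne_z h (by rw [Kyz h ht, h.cKy]; decide)) p
  rw [Kyz h ht] at e3 e4
  rw [h.cKy] at e4
  rcases k with rfl | rfl | k | rfl
  · rw [h.cKq] at e4; omega
  · rw [h.cK4] at e4; omega
  · rw [Kyz h k] at e3
    have e5 := it2 e3 h.gy h.gy h.ft.q2 h.ft.q1
    obtain ⟨c, hc, e6⟩ := h.yq
    have e7 : c * s * c⁻¹ = s * D.q := by
      rcases k with rfl | rfl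
      · exact e6
      · rw [← conj_mul, e6, cz h hc, mul_assoc, h.ft.zc0 _ h.ft.mq, mul_assoc]
    exact zq h (((isConj_iff.2 ⟨g, e2⟩).symm.trans (isConj_iff.2 ⟨c, e7⟩)).trans
      (isConj_iff.2 ⟨g, by rw [← conj_mul, e2, e5]⟩))
  · exact absurd ((mem2 e3 e2).1 h.u8m) h.zy

theorem qp_8 (p : IsConj D.z D.u8) : IsConj D.z D.q := by
  obtain ⟨g, s, k, e1, e2, e3, e4⟩ := sym h hz (h.le0 h.m8) (ne_z h (by rw [h.cK8]; decide)) p
  rw [h.cK8] at e4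
  rcases k with rfl | rfl | k | rfl
  · rw [h.cKq] at e4; omega
  · rw [h.cK4] at e4; omega
  · rw [Kyz h k] at e3
    exact absurd ((mem2 e3 e1).2 h.u8m) h.zy
  · have e5 := it2 e3 h.g8 h.g8 (r2 h) (r1 h)
    obtain ⟨c, -, e6⟩ := h.u8r
    obtain ⟨d, hd, e7⟩ := h.ft.rc
    exact zq h (((p.trans (isConj_iff.2 ⟨c, e6⟩)).trans (isConj_iff.2 ⟨g, by rw [← conj_mul, e2, e5]⟩)).trans
      (isConj_iff.2 ⟨d, by rw [← conj_mul, e7, cz h (h.le0 hd)]⟩).symm)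

theorem qp {t : G} (ht : t ∈ D.C) (tz : t ≠ D.z) (p : IsConj D.z t) : IsConj D.z D.q := by
  obtain ⟨c, hc, k⟩ := h.cls t ht (by
    obtain ⟨g, rfl⟩ := isConj_iff.1 p
    rw [conj_mul, h.ft.z2]; group)
  have p' := p.trans (isConj_iff.2 ⟨c, rfl⟩)
  rcases k with k | k | k | k | k | k | k <;> rw [k] at p'
  · exact absurd (isConj_one_left.1 p') h.ft.z1
  · exact absurd (by rw [← cz h (inv_mem hc), ← k]; group) tz
  · exact p'
  · exact absurd p' (n4 h hz)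
  · exact qp_y h hz (.inl rfl) p'
  · exact qp_y h hz (.inr rfl) p'
  · exact qp_8 h hz p'

theorem ex_n [Finite G] (p : IsConj D.z D.q) :
    ∃ n : G, n * D.z * n⁻¹ = D.q ∧ n * D.q * n⁻¹ = D.z ∧ (n * D.r * n⁻¹ = D.y ∨ n * D.r * n⁻¹ = D.y * D.z) := by
  obtain ⟨n, s, k, e1, e2, e3, e4⟩ := sym h hz (h.le0 h.ft.mq) h.ft.qz p
  rw [h.cKq] at e4
  obtain rfl : s = D.q := by
    rcases k with rfl | rfl | k | rfl
    · rfl
    · rw [h.cK4] at e4; omega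
    · rw [Kyz h k, h.cKy] at e4; omega
    · rw [h.cK8] at e4; omega
  obtain ⟨s, hs⟩ : ∃ s, n * D.r * n⁻¹ = s := ⟨_, rfl⟩
  have ps : IsConj D.z s := by
    obtain ⟨d, -, e⟩ := h.ft.rc
    exact (p.trans (isConj_iff.2 ⟨d, e⟩)).trans (isConj_iff.2 ⟨n, hs⟩)
  have sK : s ∈ D.K D.q := e3 ▸ hs ▸ conj_mem_cj n ⟨h.le0 h.ft.mr, memZ.2 h.ft.qr.symm⟩
  have a1 : cj n D.A0 = D.K D.q ⊓ 𝒵(s) := by rw [Dt.A0, cj_inf, e3, cj_Z, hs]
  have a2 : ⁅⁅D.K D.q ⊓ 𝒵(s), D.K D.q ⊓ 𝒵(s)⁆, D.K D.q ⊓ 𝒵(s)⁆ = zpowers D.q := by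
    rw [← a1, ← cj_commutator, ← cj_commutator, h.g0, cj_zp, e1]
  have a3 : Nat.card (D.K s) = 256 → D.K D.q ⊓ 𝒵(s) = D.K s := fun k =>
    eq_of_le_of_card_ge (inf_le_inf_right _ inf_le_left) (by rw [k, ← a1, card_cj, h.cA0])
  have a4 : ∀ w, D.y * w = w * D.y → n * w * n⁻¹ ≠ s := fun w k e =>
    h.ft.yr (by rwa [← hs, mul_left_inj, mul_right_inj] at e ▸ k)
  have yz := h.ft.zc0 _ h.ft.my
  obtain ⟨c, hc, k⟩ := h.cls s sK.1 (by rw [← hs, conj_mul, r2 h]; group)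
  have a5 := cjC h hc s
  have a6 : (c * s * c⁻¹ = D.y ∨ c * s * c⁻¹ = D.y * D.z) →
      ∃ n : G, n * D.z * n⁻¹ = D.q ∧ n * D.q * n⁻¹ = D.z ∧ (n * D.r * n⁻¹ = D.y ∨ n * D.r * n⁻¹ = D.y * D.z) := fun k => by
    rw [Kyz h k] at a5
    rw [← a3 (by rw [← card_cj c, a5, h.cKy])] at a5
    refine ⟨c * n, ?_, ?_, by rwa [show c * n * D.r * (c * n)⁻¹ = c * s * c⁻¹ by rw [← hs]; group]⟩
    · rw [← it2 a5 a2 h.gy h.ft.q2 h.ft.q1]
      conv_rhs => rw [← e1]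
      group
    · rw [← cz h hc]
      conv_rhs => rw [← e2]
      group
  rcases k with k | k | k | k | k | k | k
  · exact absurd (by rw [conj_eq_one_iff.1 k]; group) (a4 1 (by simp))
  · exact absurd (by rw [e2, ← cz h (inv_mem hc), ← k]; group) (a4 _ h.ft.qy.symm)
  · have e5 : c⁻¹ * D.q * c⁻¹⁻¹ = s := by rw [← k]; group
    rcases h.cls1 (inv_mem hc) with e | e | ⟨d, hd, e⟩ <;> rw [e5] at e
    · exact absurd (e1.trans e.symm) (a4 _ yz)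
    · exact absurd (by rw [← conj_mul, e1, e2, e]) (a4 (D.q * D.z) (Commute.mul_right h.ft.qy.symm yz))
    · have dK : d ∈ D.K D.q := ⟨h.le0 hd.1, hd.2⟩
      exact absurd ((it2 (by rw [Dt.A0, cj_inf, cj_eq (le_normalizer dK), cj_Z, ← e]) h.g0 a2 h.ft.q2 h.ft.z1).symm.trans
        (cz h dK.1)) h.ft.qz
  · exact absurd (ps.trans (isConj_iff.2 ⟨c, k⟩)) (n4 h hz)
  · exact a6 (.inl k)
  · exact a6 (.inr k)
  · rw [k] at a5
    rw [a3 (by rw [← card_cj c, a5, h.cK8])] at a1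
    exact absurd ((mem2 a1 hs).2 ((mem2 a5 k).2 h.u8m)) h.r0

end Fux

theorem fuThm : FuThm.{u} := fun _ _ _ _ h hz => ⟨fun g e => Fux.n4 h hz (isConj_iff.2 ⟨g, e⟩),
  fun ⟨g, h1, h2⟩ => Fux.ex_n h hz (Fux.qp h hz h1 h2 (isConj_iff.2 ⟨g, rfl⟩))⟩

end CL.RF2
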