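/-
Recognition of the Ree group over the field of two elements: transport of the local facts.
-/
import Cfsg.Agent.RF2.Defs

set_option autoImplicit false
open Cfsg Subgroup CL.Grp CL.Even CL.NGrp CL.NGrp.Tits
open scoped Pointwise commutatorElement

namespace CL.RF2

universe u v

namespace Map

variable {A B : Type*} [Group A] [Group B] {f : A →* B}

theorem fa {K : Subgroup A} {p : B → Prop} : (∀ y, y ∈ K.map f → p y) ↔ ∀ x, x ∈ K → p (f x) :=
  ⟨fun h x hx => h _ ⟨x, hx, rfl⟩, by rintro h _ ⟨x, hx, rfl⟩; exact h x hx⟩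

theorem ex {K : Subgroup A} {p : B → Prop} : (∃ y, y ∈ K.map f ∧ p y) ↔ ∃ x, x ∈ K ∧ p (f x) :=
  ⟨by rintro ⟨_, ⟨x, hx, rfl⟩, h⟩; exact ⟨x, hx, h⟩, fun ⟨x, hx, h⟩ => ⟨_, ⟨x, hx, rfl⟩, h⟩⟩

theorem infZ (hf : Function.Injective f) (K : Subgroup A) (t : A) : K.map f ⊓ 𝒵(f t) = (K ⊓ 𝒵(t)).map f := by
  ext y
  simp only [mem_inf, mem_map, memZ]
  refine ⟨?_, ?_⟩
  · rintro ⟨⟨x, hx, rfl⟩, h⟩
    exact ⟨x, ⟨hx, hf (by simpa only [map_mul] using h)⟩, rfl⟩
  · rintro ⟨x, ⟨hx, h⟩, rfl⟩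
    exact ⟨⟨x, hx, rfl⟩, by simpa only [map_mul] using congrArg f h⟩

theorem K0 (hf : Function.Injective f) (D : D0 A) (t : A) : (D.map f).K0 (f t) = (D.K0 t).map f := infZ hf _ t

theorem K (hf : Function.Injective f) (D : Dt A) (t : A) : (D.map f).K (f t) = (D.K t).map f := infZ hf _ t

theorem A0 (hf : Function.Injective f) (D : Dt A) : (D.map f).A0 = D.A0.map f :=
  (congrArg (· ⊓ 𝒵(f D.r)) (K hf D D.q)).trans (infZ hf _ _)

theorem W (D : D0 A) : (D.map f).W = D.W.map f := by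
  rw [D0.W, D0.W, MonoidHom.map_closure]
  congr 1
  ext s
  simp only [D0.map, ex, ← map_mul, ← map_inv, Set.mem_ofPred_eq, Set.mem_image]
  exact ⟨fun ⟨c, hc, e⟩ => ⟨_, ⟨c, hc, rfl⟩, e⟩, fun ⟨_, ⟨c, hc, e⟩, e'⟩ => ⟨c, hc, e ▸ e'⟩⟩

theorem W3 (hf : Function.Injective f) (D : D0 A) : (D.map f).W3 = D.W3.map f := by
  rw [D0.W3, D0.W3, MonoidHom.map_closure, show (D.map f).q = f D.q from rfl, K0 hf]
  congr 1
  ext s
  simp only [D0.map, ex, ← map_mul, ← map_inv, Set.mem_ofPred_eq, Set.mem_image]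
  refine ⟨?_, ?_⟩
  · rintro (rfl | rfl | ⟨c, hc, rfl⟩)
    exacts [⟨_, .inl rfl, rfl⟩, ⟨_, .inr (.inl rfl), rfl⟩, ⟨_, .inr (.inr ⟨c, hc, rfl⟩), rfl⟩]
  · rintro ⟨_, rfl | rfl | ⟨c, hc, rfl⟩, rfl⟩
    exacts [.inl rfl, .inr (.inl rfl), .inr (.inr ⟨c, hc, rfl⟩)]

mk_iff_of_inductive_prop CL.RF2.FT CL.RF2.Map.ft_iff

mk_iff_of_inductive_prop CL.RF2.FC CL.RF2.Map.fc_iff

theorem ft_map (hf : Function.Injective f) {D : D0 A} : FT (D.map f) ↔ FT D := by
  rw [ft_iff, ft_iff]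
  simp only [show (D.map f).C0 = D.C0.map f from rfl, show (D.map f).z = f D.z from rfl,
    show (D.map f).q = f D.q from rfl, show (D.map f).r = f D.r from rfl, show (D.map f).y = f D.y from rfl,
    K0 hf, W, W3 hf, ← map_pCoreOf_of_injective hf, fa, ex, ← map_mul, ← map_inv, ← map_commutator, ← map_inf _ _ _ hf,
    mem_map_iff_mem hf, (map_injective hf).eq_iff, card_map_of_injective hf, ne_eq, hf.eq_iff, map_eq_one_iff f hf]

theorem fc_map (hf : Function.Injective f) {D : Dt A} : FC (D.map f) ↔ FC D := by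
  have c3 : ∀ a b c : A, closure {f a, f b, f c} = (closure {a, b, c}).map f := fun a b c => by
    simp only [MonoidHom.map_closure, Set.image_insert_eq, Set.image_singleton]
  have c4 : ∀ a b c d : A, closure {f a, f b, f c, f d} = (closure {a, b, c, d}).map f := fun a b c d => by
    simp only [MonoidHom.map_closure, Set.image_insert_eq, Set.image_singleton]
  rw [fc_iff, fc_iff, show (D.map f).toD0 = D.toD0.map f from rfl, ft_map hf]
  simp only [show (D.toD0.map f).C0 = D.C0.map f from rfl, show (D.toD0.map f).z = f D.z from rfl,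
    show (D.toD0.map f).q = f D.q from rfl, show (D.toD0.map f).r = f D.r from rfl,
    show (D.toD0.map f).y = f D.y from rfl, show (D.map f).C = D.C.map f from rfl, show (D.map f).u4 = f D.u4 from rfl,
    show (D.map f).u8 = f D.u8 from rfl, show (D.map f).x1 = f D.x1 from rfl, show (D.map f).x5 = f D.x5 from rfl,
    show (D.map f).x7 = f D.x7 from rfl, show (D.map f).f = f D.f from rfl, K0 hf, K hf, A0 hf, W, W3 hf, fa, ex,
    ← map_mul, ← map_inv, ← map_pow, ← map_commutator, ← MonoidHom.map_zpowers, c3, c4, mem_map_iff_mem hf,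
    (map_injective hf).eq_iff, map_le_map_iff_of_injective hf, card_map_of_injective hf, ne_eq, hf.eq_iff,
    map_eq_one_iff f hf]

end Map

theorem mapThm : MapThm.{u, v} := by
  refine ⟨fun G H _ _ φ hφ D => (Map.fc_map hφ).2, fun G _ K D h hK => ?_, fun G _ K D h hK => ?_⟩
  · have h0 := h.le0.trans hK
    let D' : Dt K := ⟨⟨⟨_, h0 h.ft.mz⟩, ⟨_, h0 h.ft.mq⟩, ⟨_, h0 h.ft.mr⟩, ⟨_, h0 h.ft.my⟩, D.C0.subgroupOf K⟩,
      ⟨_, h0 h.m4⟩, ⟨_, h0 h.m8⟩, ⟨_, hK h.m1⟩, ⟨_, hK h.m5⟩, ⟨_, hK h.m7⟩, ⟨_, h0 h.mf⟩, D.C.subgroupOf K⟩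
    have e : D'.map K.subtype = D := by
      simp only [D', Dt.map, D0.map, map_subgroupOf_eq_of_le h0, map_subgroupOf_eq_of_le hK, coe_subtype]
    exact ⟨D', (Map.fc_map K.subtype_injective).1 (e ▸ h), e⟩
  · let D' : D0 K := ⟨⟨_, hK h.mz⟩, ⟨_, hK h.mq⟩, ⟨_, hK h.mr⟩, ⟨_, hK h.my⟩, D.C0.subgroupOf K⟩
    have e : D'.map K.subtype = D := by simp only [D', D0.map, map_subgroupOf_eq_of_le hK, coe_subtype]
    exact ⟨D', (Map.ft_map K.subtype_injective).1 (e ▸ h), e⟩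

end CL.RF2
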