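/-
Recognition of the Ree group over the field of two elements: lemmas for the certificate of the model.
-/
import Cfsg.Agent.RF2.Defs
import Cfsg.Agent.Spor.PGTop2
import Cfsg.Agent.Spor.PGCov
import Cfsg.Agent.Spor.PGStruct

set_option autoImplicit false
open Cfsg Subgroup CL.Grp CL.Even CL.NGrp CL.NGrp.Tits CL.PG
open scoped Pointwise commutatorElement

namespace CL.RF2.MdA

variable {G X : Type*} [Group G] [MulAction G X] {gs : List G}

theorem ne' {a b : G} (h : a * b⁻¹ ≠ 1) : a ≠ b := fun e => h (by rw [e, mul_inv_cancel])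

theorem mem' {a b : G} {H : Subgroup G} (h : a = b) (m : b ∈ H) : a ∈ H := h ▸ m

/-- the list `Ls` (with `1`) is closed under conjugation by the words `l` and their inverses -/
noncomputable def orbR (l Ls : List (List ℕ)) (T : List (List (ℕ × ℕ))) : List (List ℕ × List ℕ) :=
  bindL (fun p => bindL (fun x => [(app p.1 x.1, app (nth [] Ls x.2.1) p.1), (app x.1 p.1, app p.1 (nth [] Ls x.2.2))])
    (zp (0, 0) Ls p.2)) (zp [] l T)

theorem orbit_elim {l Ls : List (List ℕ)} {T : List (List (ℕ × ℕ))} (hR : Rels gs (orbR l Ls T)) {P : G → Prop}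
    {s : List ℕ} (hs : s ∈ Ls) (h1 : wordG gs s ≠ 1) (hP : ∀ s' ∈ Ls, P (wordG gs s')) :
    ∀ c ∈ subW gs l, P (c * wordG gs s * c⁻¹) := by
  have hn : ∀ j, wordG gs (nth [] Ls j) = 1 ∨ ∃ s' ∈ Ls, wordG gs (nth [] Ls j) = wordG gs s' := fun j =>
    (nth_mem_or [] Ls j).elim (fun h => .inr ⟨_, h, rfl⟩) fun h => .inl (by rw [h]; rfl)
  have key : ∀ c ∈ subW gs l, c * wordG gs s * c⁻¹ = 1 ∨ ∃ s' ∈ Ls, c * wordG gs s * c⁻¹ = wordG gs s' := by
    intro c hc
    induction hc using closure_induction_left with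
    | one => exact .inr ⟨s, hs, by simp⟩
    | mul_left x hx y _ ih =>
      obtain ⟨w, hw, rfl⟩ := hx
      have e : wordG gs w * y * wordG gs s * (wordG gs w * y)⁻¹ =
          wordG gs w * (y * wordG gs s * y⁻¹) * (wordG gs w)⁻¹ := by group
      rcases ih with h | ⟨s', hs', h⟩
      · exact .inl (by rw [e, h]; simp)
      · obtain ⟨t, ht⟩ := exists_mem_zp [] T hw
        obtain ⟨j, hj⟩ := exists_mem_zp (0, 0) t hs'
        have := hR _ (mem_bindL.2 ⟨_, ht, mem_bindL.2 ⟨_, hj, List.mem_cons_self⟩⟩)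
        simp only [wordG_app] at this
        rw [e, h, this, mul_inv_cancel_right]
        exact hn _
    | inv_mul_cancel x hx y _ ih =>
      obtain ⟨w, hw, rfl⟩ := hx
      have e : (wordG gs w)⁻¹ * y * wordG gs s * ((wordG gs w)⁻¹ * y)⁻¹ =
          (wordG gs w)⁻¹ * (y * wordG gs s * y⁻¹ * wordG gs w) := by group
      rcases ih with h | ⟨s', hs', h⟩
      · exact .inl (by rw [e, h]; simp)
      · obtain ⟨t, ht⟩ := exists_mem_zp [] T hw
        obtain ⟨j, hj⟩ := exists_mem_zp (0, 0) t hs'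
        have := hR _ (mem_bindL.2 ⟨_, ht, mem_bindL.2 ⟨_, hj, List.mem_cons_of_mem _ List.mem_cons_self⟩⟩)
        simp only [wordG_app] at this
        rw [e, h, this, inv_mul_cancel_left]
        exact hn _
  intro c hc
  rcases key c hc with h | ⟨s', hs', h⟩
  · exact absurd (by simpa using h) h1
  · exact h ▸ hP s' hs'

section
variable {P : Par} {e : ℕ → X} {ns : List Net} {D : List (ℕ × List ℕ)} {chk : List (List ℕ × List ℕ) → Bool}

/-- the words `l` keep the mask, `w` does not -/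
noncomputable def nmB (P : Par) (ns : List Net) (l : List (List ℕ)) (w : List ℕ) (m i : ℕ) : Bool :=
  bnd (bnd (invB P.N ns l m) (Nat.ble (Nat.succ i) P.n)) (bnd (tb m i) (bnot (tb (gathW 0 P.N ns w m) i)))

theorem nmem (c : Ctx P e gs ns D chk) {l : List (List ℕ)} {w : List ℕ} {m i : ℕ} (hc : nmB P ns l w m i = true) :
    wordG gs w ∉ subW gs l := fun hw => by
  obtain ⟨h1, h2⟩ := bnd_iff.1 hc
  obtain ⟨h1, hi⟩ := bnd_iff.1 h1
  obtain ⟨h2, h3⟩ := bnd_iff.1 h2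
  rw [bnot_iff, tb_eq] at h3
  rw [tb_eq] at h2
  have := (c.good.subW_le_sstab c.ok.1 h1 hw (e i)).2 ((mem_mset c.inj (blt_spec hi)).2 h2)
  rw [← c.good.mem_mset_gathW c.ok.1, mem_mset c.inj (blt_spec hi), h3] at this
  cases this

/-- no element of `H` has the square `t` -/
theorem sq_ne (c : Ctx P e gs ns D chk) {H Y : Subgroup G} {R : List (List ℕ)} {t : List ℕ} {ps : List ℕ}
    (h : Cls 4 H Y gs R) (hY : ∀ g ∈ Y, g * wordG gs t = wordG gs t * g) (ht : wordG gs t * wordG gs t = 1)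
    (hc : allL (fun p : List ℕ × ℕ => movB P.n P.N ns (app p.1 (app p.1 t)) p.2) (zp 0 R ps) = true) :
    ∀ k ∈ H, k * k ≠ wordG gs t := fun k hk e => by
  obtain ⟨r, hr, g, hg, rfl⟩ := h k hk (by rw [show 4 = 2 * 2 from rfl, pow_mul, pow_two k, e, pow_two, ht])
  obtain ⟨i, hi⟩ := exists_mem_zp 0 ps hr
  have := c.ne_one (allL_spec hc _ hi)
  simp only [wordG_app] at this
  refine this ?_
  have e2 : g * (wordG gs r * wordG gs r) = g * wordG gs t := by
    rw [hY g hg, ← e]; group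
  rw [← mul_assoc, mul_left_cancel e2, ht]

end

theorem sq_ne' {C K H : Subgroup G} {t : G} (hK : C ⊓ 𝒵(t) = K) (hH : K ≤ H) (h : ∀ k ∈ H, k * k ≠ t) :
    ∀ k ∈ C, k * k ≠ t := fun k hk e => h k (hH (hK.le ⟨hk, memZ.2 (by rw [← e, mul_assoc])⟩)) e

theorem comm_of_eq {C K : Subgroup G} {t : G} (hK : C ⊓ 𝒵(t) = K) : ∀ g ∈ K, g * t = t * g :=
  fun _ hg => memZ.1 (hK.ge hg).2

theorem card_half {A B E : Subgroup G} {m : ℕ} (hA : Nat.card A = 2 * m) (h0 : 0 < m) (hE : LB E m) (h1 : E ≤ A)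
    (h2 : E ≤ B) {y : G} (hy : y ∈ A) (hy' : y ∉ B) : Nat.card (A ⊓ B : Subgroup G) = m := by
  have : Finite A := Nat.finite_of_card_ne_zero (by omega)
  have hf : Finite (A ⊓ B : Subgroup G) := Finite.of_injective _ (inclusion_injective inf_le_left)
  have hl := (hE.mono (le_inf h1 h2)) hf
  obtain ⟨k, hk⟩ := card_dvd_of_le (inf_le_left : A ⊓ B ≤ A)
  have hk1 : k ≠ 1 := fun e => hy' (by
    have := eq_of_le_of_card_ge (inf_le_left : A ⊓ B ≤ A) (by rw [hk, e, mul_one])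
    exact (this.ge hy).2)
  rw [hA] at hk
  rcases k with _ | _ | k
  · omega
  · exact absurd rfl hk1
  · nlinarith

theorem cls_of {C : Subgroup G} {R : List (List ℕ)} (h : Cls 2 C C gs R) {P : G → Prop}
    (hP : ∀ r ∈ R, P (wordG gs r)) : ∀ t ∈ C, t * t = 1 → ∃ c ∈ C, P (c * t * c⁻¹) := fun t ht h2 => by
  obtain ⟨r, hr, g, hg, rfl⟩ := h t ht (by rw [pow_two, h2])
  exact ⟨g⁻¹, inv_mem hg, by simpa [mul_assoc] using hP r hr⟩

theorem inf_Z {l l' : List (List ℕ)} {w : List ℕ} (h : subW gs l ⊓ centralizer (subW gs [w] : Set G) = subW gs l') :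
    subW gs l ⊓ 𝒵(wordG gs w) = subW gs l' := by rwa [subW_single] at h

theorem cent_le {C A K : Subgroup G} (h : C ⊓ centralizer (A : Set G) = K) {c : G} (hc : c ∈ C)
    (hw : ∀ w ∈ A, c * w = w * c) : c ∈ K := h.le ⟨hc, fun w hm => (hw w hm).symm⟩

theorem W_eq {D : D0 G} {l : List (List ℕ)} (h1 : ∀ c ∈ D.C0, c * D.q * c⁻¹ ∈ subW gs l)
    (h2 : ∀ w ∈ l, ∃ c ∈ D.C0, c * D.q * c⁻¹ = wordG gs w) : D.W = subW gs l :=
  le_antisymm ((closure_le _).2 fun _ ⟨c, hc, e⟩ => e ▸ h1 c hc) (subW_le.2 fun w hw => subset_closure (h2 w hw))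

theorem W3_eq {D : D0 G} {l : List (List ℕ)} {K : Subgroup G} (hK : D.K0 D.q = K) (hz : D.z ∈ subW gs l)
    (hq : D.z * D.q ∈ subW gs l) (hy : D.y ∈ subW gs l) (h1 : K ≤ normalizer (subW gs l : Set G))
    (h2 : ∀ w ∈ l, wordG gs w = D.z ∨ wordG gs w = D.z * D.q ∨ ∃ d ∈ K, d * D.y * d⁻¹ = wordG gs w) :
    D.W3 = subW gs l := by
  refine le_antisymm ((closure_le _).2 ?_) (subW_le.2 fun w hw => subset_closure (hK ▸ h2 w hw))
  rintro _ (rfl | rfl | ⟨d, hd, rfl⟩)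
  exacts [hz, hq, (mem_normalizer_iff.1 (h1 (hK.le hd)) _).1 hy]

theorem gen3 (a b c : List ℕ) : subW gs [a, b, c] = closure {wordG gs a, wordG gs b, wordG gs c} := by
  unfold subW; congr 1; ext; simp [eq_comm]

theorem gen4 {a b c d : List ℕ} {x : G} (h : x = wordG gs b) :
    subW gs [a, b, c, d] = closure {wordG gs a, x, wordG gs c, wordG gs d} := by
  unfold subW; congr 1; ext; simp [h, eq_comm]

theorem n5 {a b c d : List ℕ} {H : Subgroup G} (hH : Nat.card H = 10240) (hC : Nat.card (subW gs [a, b, c, d]) = 20480)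
    (h1 : wordG gs a * wordG gs c ∈ H) (h2 : wordG gs b * wordG gs c ∈ H) (h3 : wordG gs d * wordG gs c ∈ H) :
    wordG gs c ∉ H := fun h => by
  have : Finite H := Nat.finite_of_card_ne_zero (by omega)
  have hle : subW gs [a, b, c, d] ≤ H := subW_le.2 (by
    simp only [List.forall_mem_cons]
    exact ⟨(mul_mem_cancel_right h).1 h1, (mul_mem_cancel_right h).1 h2, h, (mul_mem_cancel_right h).1 h3,
      fun _ h => by cases h⟩)
  have := card_le_of_le hle
  omega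

theorem nx {a c : G} {H : Subgroup G} (h : a * c ∈ H) (hc : c ∉ H) : a ∉ H :=
  fun ha => hc ((mul_mem_cancel_left ha).1 h)

theorem lvl2 {g : List ℕ} {l : List (List ℕ)} (h : Lvl gs g 2 l) {a : G} (ha : a ∈ subW gs (g :: l)) :
    a ∈ subW gs l ∨ (wordG gs g)⁻¹ * a ∈ subW gs l := by
  obtain ⟨i, hi, hm⟩ := h.1 a ha
  interval_cases i
  · exact .inl (by simpa using hm)
  · exact .inr (by simpa using hm)

theorem cent0 {C C0 W : Subgroup G} {x : G} (hle : C0 ≤ C) (hW : W ≤ C0) (hx : x ∉ C0)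
    (h : ∀ c ∈ C, (∀ w ∈ W, c * w = w * c) → c ∈ W ∨ x⁻¹ * c ∈ W) :
    ∀ c ∈ C0, (∀ w ∈ W, c * w = w * c) → c ∈ W := fun c hc hw =>
  (h c (hle hc) hw).resolve_right fun hm => hx (inv_mem_iff.1 ((mul_mem_cancel_right hc).1 (hW hm)))

theorem sq_of {A : Subgroup G} (h : IsElementaryAbelian 2 A) : ∀ a ∈ A, a * a = 1 := fun a ha => by
  rw [← pow_two, h.2 a ha]

theorem inf_eq_of_cent {A B I : Subgroup G} (h : A ⊓ centralizer (B : Set G) = I) (hB : ∀ a ∈ B, ∀ b ∈ B, a * b = b * a)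
    (hI : I ≤ B) : A ⊓ B = I :=
  le_antisymm (fun _ hx => h.le ⟨hx.1, fun b hb => hB b hb _ hx.2⟩) (le_inf (h.ge.trans inf_le_left) hI)

theorem nmem_lb {w : List ℕ} {l : List (List ℕ)} {m m' : ℕ} (hU : UB (subW gs l) m) (hL : LB (subW gs (w :: l)) m')
    (h : m < m') : wordG gs w ∉ subW gs l := fun hw => by
  have := hU.1
  have := (hL.mono (subW_le.2 (List.forall_mem_cons.2 ⟨hw, fun _ h => mem_subW h⟩)) hU.1).trans hU.2
  omega

theorem A0_eq {D : Dt G} {K A : Subgroup G} (h1 : D.K D.q = K) (h2 : K ⊓ 𝒵(D.r) = A) : D.A0 = A := by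
  rw [← h2, ← h1]; rfl

/-- transport of the data along an injective homomorphism defined on `C` -/
theorem tr {A B : Type} [Group A] [Group B] (hm : MapThm.{0, 0}) {K : Subgroup A} (φ : K →* B)
    (hφ : Function.Injective φ) {D : Dt A} (hD : FC D) (hC : D.C = K) :
    ∃ D' : Dt B, FC D' ∧ D'.C = φ.range ∧ ∀ x : K, (x = D.z → D'.z = φ x) ∧ (x = D.q → D'.q = φ x) ∧
      (x = D.r → D'.r = φ x) ∧ (x = D.y → D'.y = φ x) := by
  obtain ⟨D1, h1, rfl⟩ := hm.2.1 A K D hD hC.le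
  refine ⟨D1.map φ, hm.1 _ _ φ hφ D1 h1, ?_, fun x => ⟨fun h => ?_, fun h => ?_, fun h => ?_, fun h => ?_⟩⟩
  · have : D1.C = ⊤ := eq_top_iff.2 fun x _ => by
      obtain ⟨y, hy, e⟩ := hC.ge x.2
      exact (Subtype.ext e : y = x) ▸ hy
    exact (congrArg (Subgroup.map φ) this).trans (MonoidHom.range_eq_map φ).symm
  all_goals exact congrArg φ (Subtype.ext h.symm)

theorem inj_of_rel {B : Type*} [Group B] {cs : List B} {l l' : List (List ℕ)} (h : RelLe gs l cs l')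
    (h' : RelLe cs l' gs l) : ∃ φ : subW gs l →* B, Function.Injective φ ∧ φ.range = subW cs l' ∧
      ∀ w (x : subW gs l), wordG gs (subs l w) = x → φ x = wordG cs (subs l' w) := by
  obtain ⟨f, hf⟩ := h.equiv h'
  refine ⟨(subW cs l').subtype.comp f.toMonoidHom, Subtype.val_injective.comp f.injective, ?_, ?_⟩
  · ext y
    exact ⟨fun ⟨x, e⟩ => e ▸ (f x).2, fun hy => ⟨f.symm ⟨y, hy⟩, by simp⟩⟩
  · rintro w ⟨x, hx⟩ rfl
    exact hf w hx

end CL.RF2.MdA
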