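/-
Recognition of the Ree group over the field of two elements: the model.
-/
import Cfsg.Agent.RF2.MdM

set_option autoImplicit false
open Cfsg Subgroup CL.Grp CL.Even CL.NGrp CL.NGrp.Tits CL.PG CL.RF2.MdA
open scoped Pointwise commutatorElement

namespace CL.RF2

theorem two {A B : Type} [Group A] [Group B] (hm : MapThm.{0, 0}) {K : Subgroup A} (φ : K →* B)
    (hφ : Function.Injective φ) (σ : K →* A) (hσ : Function.Injective σ) (hs : σ.range = K) {F : Dt A} (h0 : FC F)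
    (hK : F.C = K) (sz : ∀ x : K, F.z = x → σ x = F.z) (sq : ∀ x : K, F.q = x → σ x = F.q)
    (sr : ∀ x : K, F.r = x → σ x = F.r) (sy : ∀ x : K, F.y = x → σ x = F.y * F.z) :
    ∃ D D' : Dt B, FC D ∧ FC D' ∧ D.C = φ.range ∧ (∃ x : K, F.z = x ∧ D.z = φ x) ∧ D'.C = D.C ∧ D'.z = D.z ∧
      D'.q = D.q ∧ D'.r = D.r ∧ D'.y = D.y * D.z := by
  subst hK
  obtain ⟨D, hD, hC, hx⟩ := tr hm φ hφ h0 rfl
  obtain ⟨E, hE, hEC, hy⟩ := tr hm σ hσ h0 rfl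
  obtain ⟨D', hD', hC', hx'⟩ := tr hm φ hφ hE (hEC.trans hs)
  have mz := h0.le0 h0.ft.mz
  have mq := h0.le0 h0.ft.mq
  have mr := h0.le0 h0.ft.mr
  have my := h0.le0 h0.ft.my
  have ez := ((hy ⟨_, mz⟩).1 rfl).trans (sz _ rfl)
  have eq := ((hy ⟨_, mq⟩).2.1 rfl).trans (sq _ rfl)
  have er := ((hy ⟨_, mr⟩).2.2.1 rfl).trans (sr _ rfl)
  have ey := ((hy ⟨_, my⟩).2.2.2 rfl).trans (sy _ rfl)
  have dz := (hx ⟨_, mz⟩).1 rfl
  refine ⟨D, D', hD, hD', hC, ⟨⟨_, mz⟩, rfl, dz⟩, hC'.trans hC.symm, ((hx' ⟨_, mz⟩).1 ez.symm).trans dz.symm,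
    ((hx' ⟨_, mq⟩).2.1 eq.symm).trans ((hx ⟨_, mq⟩).2.1 rfl).symm,
    ((hx' ⟨_, mr⟩).2.2.1 er.symm).trans ((hx ⟨_, mr⟩).2.2.1 rfl).symm, ?_⟩
  rw [(hx' (⟨_, my⟩ * ⟨_, mz⟩)).2.2.2 ey.symm, map_mul, dz, (hx ⟨_, my⟩).2.2.2 rfl]

theorem modThm_aux (hm : MapThm.{0, 0}) {A : Type} [Group A] (H : Subgroup A)
    (f : Nonempty (subW CL.Std.R2.gs1 [[0], [2], [4], [6]] ≃* H)) :
    ∃ D D' : Dt H, FC D ∧ FC D' ∧ 𝒵(D.z) = D.C ∧ D'.C = D.C ∧ D'.z = D.z ∧ D'.q = D.q ∧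
      D'.r = D.r ∧ D'.y = D.y * D.z ∧
      ∀ (U : Sylow 2 H) (t : H), orderOf t = 2 → (∀ u ∈ (U : Subgroup H), u * t = t * u) → ∃ g, g * t * g⁻¹ = D.z := by
  obtain ⟨_, cs, t⟩ := MM.xtop (Γ := H) f
  have c := MT.c1
  have r1 := MM.xh1 t.c c ((faithful_eF _).mono le_top)
  obtain ⟨φ, hφ, hr, hv⟩ := inj_of_rel (r1.symm_of_card (MM.xC_ub t.c) (MT.C_lb c)) r1
  have r2 := MM.xsg c c ((faithful_eF _).mono le_top)
  obtain ⟨σ, hσ, hs, hw⟩ := inj_of_rel r2 (r2.symm_of_card (MT.C_ub c) (MT.C2_lb c))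
  obtain ⟨wz, z1, z2⟩ := MT.sgz c
  obtain ⟨wq, q1, q2⟩ := MT.sgq c
  obtain ⟨wr, s1, s2⟩ := MT.sgr c
  obtain ⟨wy, y1, y2⟩ := MT.sgy c
  obtain ⟨D, D', hD, hD', hC, ⟨x0, hx0, dz⟩, a1, a2, a3, a4, a5⟩ := two hm φ hφ σ hσ (hs.trans (MT.hC2 c)) (MT.fc c) rfl
    (fun x e => (hw wz x (z1.trans e)).trans z2) (fun x e => (hw wq x (q1.trans e)).trans q2)
    (fun x e => (hw wr x (s1.trans e)).trans s2) (fun x e => (hw wy x (y1.trans e)).trans y2)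
  have dz' := dz.trans ((hv [4, 4] x0 ((MT.wz c).trans hx0)).trans (MM.wz t.c))
  refine ⟨D, D', hD, hD', ?_, a1, a2, a3, a4, a5, fun U x hx2 hU => ?_⟩
  · rw [dz', hC, hr, ← subW_single]
    exact t.top_inf (MM.xcz t.c (t.ub _))
  · have := t.finite
    have hk : (35942400 : ℕ).factorization 2 = 12 := by decide +kernel
    obtain ⟨g, -, hg⟩ := exists_conj_le (Y := ⊤) Nat.prime_two (card_top.trans t.card) hk
      (by rw [U.card_eq_multiplicity, t.card, hk]) le_top (isPGroup_of_card (MM.xS_card t.c) 12 (by norm_num)) le_top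
    have hx : g⁻¹ * x * g⁻¹⁻¹ ∈ _ := (t.top_inf (MM.xcS t.c (t.ub _))).le fun s hs => by
      have := hU _ (hg s hs)
      calc s * (g⁻¹ * x * g⁻¹⁻¹) = g⁻¹ * (g * s * g⁻¹ * x) * g := by group
        _ = _ := by rw [this]; group
    rw [subW_single, mem_zp2 (MM.z2 t.c)] at hx
    rcases hx with h | h
    · have : x = 1 := by rwa [conj_eq_one_iff] at h
      simp [this] at hx2
    · exact ⟨g⁻¹, h.trans dz'.symm⟩

theorem modThm (hm : MapThm.{0, 0}) : ModThm := modThm_aux hm _ CL.Std.R2.iso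

end CL.RF2
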