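/-
Recognition of the Ree group over the field of two elements: the point geometry of the Tits group from local facts.
-/
import Cfsg.Agent.RF2.Defs

set_option autoImplicit false
open Cfsg Subgroup CL.Grp CL.Even CL.NGrp CL.NGrp.Tits
open scoped Pointwise commutatorElement

namespace CL.RF2

universe u

/-- the hypotheses of the geometry step -/
structure TgH {G : Type*} [Group G] (D : D0 G) (n : G) : Prop where
  ft : FT D
  hC : 𝒵(D.z) = D.C0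
  nz : n * D.z * n⁻¹ = D.q
  nq : n * D.q * n⁻¹ = D.z
  nr : n * D.r * n⁻¹ = D.y

/-- adjacency -/
def TgA {G : Type*} [Group G] (D : D0 G) (p s : G) : Prop := ∃ g : G, g * D.z * g⁻¹ = p ∧ g * D.q * g⁻¹ = s

/-- the subgroup generated by the neighbours -/
def TgU {G : Type*} [Group G] (D : D0 G) (p : G) : Subgroup G := closure {s | TgA D p s}

theorem TgA.cj {G : Type*} [Group G] {D : D0 G} (g : G) {p s : G} (h : TgA D p s) :
    TgA D (g * p * g⁻¹) (g * s * g⁻¹) := by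
  obtain ⟨c, rfl, rfl⟩ := h
  exact ⟨g * c, by group, by group⟩

theorem cj_TgU_le {G : Type*} [Group G] (D : D0 G) (g p : G) : cj g (TgU D p) ≤ TgU D (g * p * g⁻¹) := by
  rw [cj_le_iff, TgU, closure_le]
  intro s hs
  rw [SetLike.mem_coe, mem_cj, inv_inv]
  exact subset_closure (TgA.cj g hs)

theorem cj_TgU {G : Type*} [Group G] (D : D0 G) (g p : G) : cj g (TgU D p) = TgU D (g * p * g⁻¹) := by
  refine le_antisymm (cj_TgU_le D g p) ?_
  rw [le_cj_iff]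
  simpa [mul_assoc] using cj_TgU_le D g⁻¹ (g * p * g⁻¹)

namespace TgH
variable {G : Type*} [Group G] {D : D0 G} {n : G} (h : TgH D n)
include h

theorem memC {c : G} : c ∈ D.C0 ↔ c * D.z * c⁻¹ = D.z := by rw [← h.hC, memZ']

theorem memQ {c : G} : c ∈ D.K0 D.q ↔ c * D.z * c⁻¹ = D.z ∧ c * D.q * c⁻¹ = D.q := by
  rw [D0.K0, mem_inf, h.memC, memZ']

theorem nz' : n⁻¹ * D.z * n = D.q := by rw [← h.nq]; group
theorem nq' : n⁻¹ * D.q * n = D.z := by rw [← h.nz]; group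

theorem cjQ {k : G} (hk : k ∈ D.K0 D.q) : n * k * n⁻¹ ∈ D.K0 D.q := by
  rw [h.memQ] at hk ⊢
  constructor
  · calc n * k * n⁻¹ * D.z * (n * k * n⁻¹)⁻¹ = n * (k * (n⁻¹ * D.z * n) * k⁻¹) * n⁻¹ := by group
      _ = D.z := by rw [h.nz', hk.2, h.nq]
  · calc n * k * n⁻¹ * D.q * (n * k * n⁻¹)⁻¹ = n * (k * (n⁻¹ * D.q * n) * k⁻¹) * n⁻¹ := by group
      _ = D.q := by rw [h.nq', hk.1, h.nz]

theorem cjQ' {k : G} (hk : k ∈ D.K0 D.q) : n⁻¹ * k * n ∈ D.K0 D.q := by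
  rw [h.memQ] at hk ⊢
  constructor
  · calc n⁻¹ * k * n * D.z * (n⁻¹ * k * n)⁻¹ = n⁻¹ * (k * (n * D.z * n⁻¹) * k⁻¹) * n := by group
      _ = D.z := by rw [h.nz, hk.2, h.nq']
  · calc n⁻¹ * k * n * D.q * (n⁻¹ * k * n)⁻¹ = n⁻¹ * (k * (n * D.q * n⁻¹) * k⁻¹) * n := by group
      _ = D.q := by rw [h.nq, hk.1, h.nz']

theorem qz' : D.q * D.z = D.z * D.q := h.ft.zc0 _ h.ft.mq

theorem base1 : TgU D D.z = D.W := by
  rw [TgU, D0.W]
  congr 1
  ext s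
  simp only [Set.mem_ofPred_eq, TgA, h.memC]

theorem base2 : TgU D D.q = D.W3 := by
  have e : TgU D D.q = cj n D.W := by rw [← h.base1, cj_TgU, h.nz]
  rw [e]
  apply le_antisymm
  · rw [cj_le_iff, D0.W, closure_le]
    rintro s ⟨c, hc, rfl⟩
    rw [SetLike.mem_coe, mem_cj, inv_inv]
    rcases h.ft.cls0 c hc with e | e | ⟨d, hd, e⟩ <;> rw [e]
    · exact subset_closure (.inl h.nq)
    · refine subset_closure (.inr (.inl ?_))
      calc n * (D.z * D.q) * n⁻¹ = (n * D.z * n⁻¹) * (n * D.q * n⁻¹) := by group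
        _ = _ := by rw [h.nz, h.nq, h.qz']
    · exact subset_closure (.inr (.inr ⟨_, h.cjQ hd, by rw [← h.nr]; group⟩))
  · rw [D0.W3, closure_le]
    rintro s (rfl | rfl | ⟨d, hd, rfl⟩)
    · rw [SetLike.mem_coe, mem_cj, h.nz']; exact FT.qW
    · rw [SetLike.mem_coe, mem_cj]
      have : n⁻¹ * (D.z * D.q) * n = (n⁻¹ * D.z * n) * (n⁻¹ * D.q * n) := by group
      rw [this, h.nz', h.nq']
      exact mul_mem FT.qW h.ft.zW
    · rw [SetLike.mem_coe, mem_cj]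
      obtain ⟨c, hc, e⟩ := h.ft.rc
      exact subset_closure ⟨_, mul_mem (h.cjQ' hd).1 hc, by rw [← h.nr, ← e]; group⟩

theorem gQz : gQ D.z = pCoreOf 2 D.C0 := by rw [gQ, h.hC]

theorem centW : 𝒞(D.W) = D.W := by
  ext c
  rw [mem_centralizer_iff]
  constructor
  · intro e
    refine h.ft.cent0 c ?_ fun w hw => (e w hw).symm
    rw [← h.hC, memZ]
    exact (e _ h.ft.zW).symm
  · intro hc w hw
    exact h.ft.abW _ hw _ hc

theorem cardN [Finite G] : Nat.card 𝒩(ln D.z D.q) = 6144 := by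
  obtain ⟨c, hc, ec⟩ := h.ft.hq
  have cz := h.memC.1 hc
  have ml : ∀ {x}, x ∈ ln D.z D.q ↔ x = 1 ∨ x = D.z ∨ x = D.q ∨ x = D.z * D.q :=
    mem_ln' h.ft.z2 h.ft.q2 h.qz'.symm
  have zq1 : D.z ≠ D.z * D.q := fun e => h.ft.q1 (by simpa using e)
  have zq2 : D.q ≠ D.z * D.q := fun e => h.ft.z1 (by simpa using e)
  have hn : n ∈ 𝒩(ln D.z D.q) := by rw [← cj_eq_iff_mem, cj_ln, h.nz, h.nq, ln_comm]
  have hcN : c ∈ 𝒩(ln D.z D.q) := by
    rw [← cj_eq_iff_mem, cj_ln, cz, ec]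
    refine le_antisymm (ln_le (left_mem_ln _ _) (mul_mem (left_mem_ln _ _) (right_mem_ln _ _)))
      (ln_le (left_mem_ln _ _) ?_)
    have := mul_mem (inv_mem (left_mem_ln D.z (D.z * D.q))) (right_mem_ln D.z (D.z * D.q))
    rwa [inv_mul_cancel_left] at this
  have cm : ∀ g ∈ 𝒩(ln D.z D.q), ∀ x ∈ ln D.z D.q, g * x * g⁻¹ ∈ ln D.z D.q := fun g hg x hx =>
    (mem_normalizer_iff.1 hg x).1 hx
  have o1 : orb 𝒩(ln D.z D.q) D.z = {D.z, D.q, D.z * D.q} := by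
    ext s
    constructor
    · rintro ⟨g, hg, rfl⟩
      rcases ml.1 (cm g hg _ (left_mem_ln _ _)) with e | e
      · exact absurd (by simpa using e) h.ft.z1
      · exact e
    · rintro (rfl | rfl | rfl)
      · exact ⟨1, one_mem _, by simp⟩
      · exact ⟨n, hn, h.nz⟩
      · exact ⟨c * n, mul_mem hcN hn, by rw [← ec, ← h.nz]; group⟩
  have o2 : orb (𝒩(ln D.z D.q) ⊓ 𝒵(D.z)) D.q = {D.q, D.z * D.q} := by
    ext s
    constructor
    · rintro ⟨g, hg, rfl⟩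
      rcases ml.1 (cm g hg.1 _ (right_mem_ln _ _)) with e | e | e
      · exact absurd (by simpa using e) h.ft.q1
      · rw [← memZ'.1 hg.2] at e
        exact absurd (by simpa using e) h.ft.qz
      · exact e
    · rintro (rfl | rfl)
      · exact ⟨1, one_mem _, by simp⟩
      · exact ⟨c, ⟨hcN, memZ'.2 cz⟩, ec⟩
  have o3 : 𝒩(ln D.z D.q) ⊓ 𝒵(D.z) ⊓ 𝒵(D.q) = D.K0 D.q := by
    rw [D0.K0, ← h.hC, inf_assoc, inf_eq_right]
    intro g hg
    rw [← cj_eq_iff_mem, cj_ln, memZ'.1 hg.1, memZ'.1 hg.2]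
  have c1 := card_orb 𝒩(ln D.z D.q) D.z
  have c2 := card_orb (𝒩(ln D.z D.q) ⊓ 𝒵(D.z)) D.q
  rw [o2, o3, h.ft.cK0, Set.ncard_pair zq2] at c2
  rw [o1, ← c2, Set.ncard_eq_three.2 ⟨_, _, _, h.ft.qz.symm, zq1, zq2, rfl⟩] at c1
  exact c1.symm

theorem tg0 [Finite G] : TG0 (TgU D) (TgA D) where
  cjU := cj_TgU D
  cjA := fun g _ _ a => a.cj g
  trans := by
    rintro _ _ _ _ ⟨g, rfl, rfl⟩ ⟨g', rfl, rfl⟩
    exact ⟨g' * g⁻¹, by group, by group⟩
  symm := by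
    rintro _ _ ⟨g, rfl, rfl⟩
    exact ⟨g * n, by rw [← h.nz]; group, by conv_rhs => rw [← h.nq]
                                            group⟩
  mul := by
    rintro _ _ ⟨g, rfl, rfl⟩
    obtain ⟨c, hc, ec⟩ := h.ft.hq
    refine ⟨g * c, ?_, ?_⟩
    · conv_rhs => rw [← h.memC.1 hc]
      group
    · calc g * c * D.q * (g * c)⁻¹ = g * (c * D.q * c⁻¹) * g⁻¹ := by group
        _ = _ := by rw [ec]; group
  sq := by
    rintro _ _ ⟨g, rfl, rfl⟩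
    calc _ = g * (D.z * D.z) * g⁻¹ := by group
      _ = 1 := by rw [h.ft.z2]; group
  ne1 := by
    rintro _ _ ⟨g, rfl, rfl⟩ e
    exact h.ft.z1 (by simpa using e)
  ne := by
    rintro _ _ ⟨g, rfl, rfl⟩ e
    exact h.ft.qz (by simpa using e.symm)
  comm := by
    rintro _ _ ⟨g, rfl, rfl⟩
    calc _ = g * (D.z * D.q) * g⁻¹ := by group
      _ = _ := by rw [← h.qz']; group
  Ule := fun _ K => by rw [TgU, closure_le]; rfl
  cU := by
    rintro _ _ ⟨g, rfl, rfl⟩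
    rw [← cj_TgU, card_cj, h.base1, h.ft.cW]
  cI := by
    rintro _ _ ⟨g, rfl, rfl⟩
    rw [← cj_TgU, ← cj_TgU, ← cj_inf, card_cj, h.base1, h.base2, h.ft.cI]
  cD := by
    rintro _ _ ⟨g, rfl, rfl⟩
    have e1 : g * D.z * g⁻¹ = (g * n) * D.q * (g * n)⁻¹ := by rw [← h.nq]; group
    have e2 : g * D.q * g⁻¹ = (g * n) * D.z * (g * n)⁻¹ := by rw [← h.nz]; group
    rw [e1, e2, ← cj_TgU, ← cj_gQ, ← cj_inf, card_cj, h.base2, h.gQz, h.ft.cD]
  cQ := by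
    rintro _ _ ⟨g, rfl, rfl⟩
    rw [← cj_gQ, card_cj, h.gQz, h.ft.cQ]
  cC := by
    rintro _ _ ⟨g, rfl, rfl⟩
    rw [← cj_Z, card_cj, h.hC, h.ft.cC0]
  cN := by
    rintro _ _ ⟨g, rfl, rfl⟩
    rw [← cj_ln, ← cj_norm, card_cj, h.cardN]
  cent := by
    rintro _ _ ⟨g, rfl, rfl⟩
    rw [← cj_TgU, ← cj_cent, h.base1, h.centW]
  cm := by
    rintro _ _ ⟨g, rfl, rfl⟩
    rw [← cj_TgU, ← cj_TgU, ← cj_inf, ← cj_commutator, h.base1, h.base2, h.ft.cm]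

end TgH

theorem tgThm : TgThm.{u} := fun _ _ _ D n hf hC nz nq nr =>
  ⟨TgU D, TgA D, TgH.tg0 (n := n) ⟨hf, hC, nz, nq, nr⟩, 1, by simp, by simp⟩

end CL.RF2
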