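/-
Recognition of the Ree group over the field of two elements: the transfer step.
-/
import Cfsg.Agent.RF2.Defs
import Cfsg.Agent.Transfer.Basic

set_option autoImplicit false
open Cfsg Subgroup CL.Grp CL.Even CL.NGrp CL.NGrp.Tits
open scoped Pointwise commutatorElement

namespace CL.RF2

universe u

/-- the hypotheses of the transfer step -/
structure TrH {G : Type*} [Group G] (D : Dt G) (n : G) : Prop where
  fc : FC D
  hC : 𝒵(D.z) = D.C
  n4 : ∀ g : G, g * D.z * g⁻¹ ≠ D.u4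
  nz : n * D.z * n⁻¹ = D.q
  nq : n * D.q * n⁻¹ = D.z
  nr : n * D.r * n⁻¹ = D.y

/-- conjugates of `z` -/
def TrPt {G : Type*} [Group G] (D : Dt G) (t : G) : Prop := ∃ g : G, g * D.z * g⁻¹ = t

/-- reduction to a root of `z` -/
def TrRed {G : Type*} [Group G] (D : Dt G) (x : G) : Prop :=
  ∃ g : G, g * x * g⁻¹ ∈ D.C ∧ (g * x * g⁻¹) * (g * x * g⁻¹) = D.z ∧ (g * x * g⁻¹ ∈ D.C0 ↔ x ∈ D.C0)

theorem TrPt.cj {G : Type*} [Group G] {D : Dt G} {t : G} (h : TrPt D t) (c : G) : TrPt D (c * t * c⁻¹) := by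
  obtain ⟨g, rfl⟩ := h
  exact ⟨c * g, by group⟩

theorem TrRed.step {G : Type*} [Group G] {D : Dt G} {x c : G} (h : TrRed D (c * x * c⁻¹))
    (e : c * x * c⁻¹ ∈ D.C0 ↔ x ∈ D.C0) : TrRed D x := by
  obtain ⟨g, h1, h2, h3⟩ := h
  have e' : g * c * x * (g * c)⁻¹ = g * (c * x * c⁻¹) * g⁻¹ := by group
  exact ⟨g * c, by rw [e']; exact h1, by rw [e']; exact h2, by rw [e', h3, e]⟩

namespace TrH
variable {G : Type*} [Group G] {D : Dt G} {n : G} (h : TrH D n)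
include h

theorem memC {c : G} : c ∈ D.C ↔ c * D.z * c⁻¹ = D.z := by rw [← h.hC, memZ']

theorem memQ {c : G} : c ∈ D.K D.q ↔ c * D.z * c⁻¹ = D.z ∧ c * D.q * c⁻¹ = D.q := by
  rw [Dt.K, mem_inf, h.memC, memZ']

theorem nz' : n⁻¹ * D.z * n = D.q := by rw [← h.nq]; group
theorem nq' : n⁻¹ * D.q * n = D.z := by rw [← h.nz]; group
theorem ny' : n⁻¹ * D.y * n = D.r := by rw [← h.nr]; group

theorem cjQ {k : G} (hk : k ∈ D.K D.q) : n * k * n⁻¹ ∈ D.K D.q := by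
  rw [h.memQ] at hk ⊢
  constructor
  · calc n * k * n⁻¹ * D.z * (n * k * n⁻¹)⁻¹ = n * (k * (n⁻¹ * D.z * n) * k⁻¹) * n⁻¹ := by group
      _ = D.z := by rw [h.nz', hk.2, h.nq]
  · calc n * k * n⁻¹ * D.q * (n * k * n⁻¹)⁻¹ = n * (k * (n⁻¹ * D.q * n) * k⁻¹) * n⁻¹ := by group
      _ = D.q := by rw [h.nq', hk.1, h.nz]

theorem cjQ' {k : G} (hk : k ∈ D.K D.q) : n⁻¹ * k * n ∈ D.K D.q := by
  rw [h.memQ] at hk ⊢
  constructor
  · calc n⁻¹ * k * n * D.z * (n⁻¹ * k * n)⁻¹ = n⁻¹ * (k * (n * D.z * n⁻¹) * k⁻¹) * n := by group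
      _ = D.z := by rw [h.nz, hk.2, h.nq']
  · calc n⁻¹ * k * n * D.q * (n⁻¹ * k * n)⁻¹ = n⁻¹ * (k * (n * D.q * n⁻¹) * k⁻¹) * n := by group
      _ = D.q := by rw [h.nq, hk.1, h.nz']

theorem dQ : n * n ∈ D.K D.q := by
  rw [h.memQ]
  constructor
  · calc n * n * D.z * (n * n)⁻¹ = n * (n * D.z * n⁻¹) * n⁻¹ := by group
      _ = D.z := by rw [h.nz, h.nq]
  · calc n * n * D.q * (n * n)⁻¹ = n * (n * D.q * n⁻¹) * n⁻¹ := by group
      _ = D.q := by rw [h.nq, h.nz]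

theorem ny2 : n * D.y * n⁻¹ = (n * n) * D.r * (n * n)⁻¹ := by rw [← h.nr]; group

theorem ptq : TrPt D D.q := ⟨n, h.nz⟩

theorem ptr : TrPt D D.r := by
  obtain ⟨c, -, e⟩ := h.fc.ft.rc
  exact e ▸ h.ptq.cj c

theorem pty : TrPt D D.y := h.nr ▸ h.ptr.cj n

theorem W3W {w : G} (hw : w ∈ D.W3) : n⁻¹ * w * n ∈ D.W := by
  have : D.W3 ≤ cj n D.W := by
    rw [D0.W3, closure_le]
    rintro s (rfl | rfl | ⟨d, hd, rfl⟩)
    · rw [SetLike.mem_coe, mem_cj, h.nz']; exact FT.qW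
    · rw [SetLike.mem_coe, mem_cj]
      have : n⁻¹ * (D.z * D.q) * n = (n⁻¹ * D.z * n) * (n⁻¹ * D.q * n) := by group
      rw [this, h.nz', h.nq']
      exact mul_mem FT.qW h.fc.ft.zW
    · rw [SetLike.mem_coe, mem_cj]
      obtain ⟨c, hc, e⟩ := h.fc.ft.rc
      have hd' : n⁻¹ * d * n ∈ D.K D.q := h.cjQ' ⟨h.fc.le0 hd.1, hd.2⟩
      have : n⁻¹ * (d * D.y * d⁻¹) * n = (n⁻¹ * d * n * c) * D.q * (n⁻¹ * d * n * c)⁻¹ := by
        rw [← h.nr, ← e]; group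
      rw [this]
      exact h.fc.conjW (mul_mem hd'.1 (h.fc.le0 hc))
  exact mem_cj.1 (this hw)

theorem k1 {k : G} (hk : k ∈ D.K D.q) : n * k * n⁻¹ ∈ D.C0 ↔ k ∈ D.C0 := by
  have g := h.fc.genQ
  rw [g] at hk
  induction hk using closure_induction with
  | mem x hx =>
    rcases hx with rfl | rfl | rfl
    · refine iff_of_false (fun e => ?_) h.fc.n1
      have h1 : D.x1 ∈ D.K D.q := ⟨h.fc.m1, memZ.2 h.fc.x1q⟩
      have h2 := h.cjQ h1
      have h3 : (n * n)⁻¹ * (n * D.x1 * n⁻¹) * (n * n)⁻¹⁻¹ ∈ D.K D.q :=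
        mul_mem (mul_mem (inv_mem h.dQ) h2) (inv_mem (inv_mem h.dQ))
      refine h.fc.nr _ ⟨(h.fc.conj0 (inv_mem h.dQ.1) h2.1).2 e, h3.2⟩ ?_
      calc _ = n⁻¹ * (D.x1 * D.x1) * n := by group
        _ = D.r := by rw [h.fc.s1, h.ny']
    · refine iff_of_false (fun e => ?_) h.fc.n5
      apply h.fc.ft.q1
      have := h.fc.cent3 _ e fun w hw => by
        have := h.fc.x5W _ (h.W3W hw)
        calc n * D.x5 * n⁻¹ * w = n * (D.x5 * (n⁻¹ * w * n)) * n⁻¹ := by group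
          _ = w * (n * D.x5 * n⁻¹) := by rw [this]; group
      rw [← h.nz, ← h.fc.s5, ← this]; group
    · refine iff_of_false (fun e => ?_) h.fc.n7
      refine h.fc.ny _ e ?_
      rw [← h.nr, ← h.fc.s7]; group
  | one => simp
  | mul x y hx hy ihx ihy =>
    rw [← g] at hx hy
    have : n * (x * y) * n⁻¹ = (n * x * n⁻¹) * (n * y * n⁻¹) := by group
    rw [this, h.fc.mul0 (h.cjQ hx).1 (h.cjQ hy).1, h.fc.mul0 hx.1 hy.1]
    exact iff_congr ihx ihy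
  | inv x hx ih =>
    have : n * x⁻¹ * n⁻¹ = (n * x * n⁻¹)⁻¹ := by group
    rw [this, inv_mem_iff, inv_mem_iff]
    exact ih

theorem caseQ {x : G} (hx : x ∈ D.C) (e : x * x = D.q) : TrRed D x := by
  have h1 : x ∈ D.K D.q := ⟨hx, memZ.2 (by rw [← e, mul_assoc])⟩
  refine ⟨n, (h.cjQ h1).1, ?_, h.k1 h1⟩
  rw [← h.nq, ← e]; group

theorem caseQ' {x c : G} (hx : x ∈ D.C) (hc : c ∈ D.C) (e : x * x = c * D.q * c⁻¹) : TrRed D x := by
  refine TrRed.step (c := c⁻¹) (h.caseQ (mul_mem (mul_mem (inv_mem hc) hx) (inv_mem (inv_mem hc))) ?_)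
    (h.fc.conj0 (inv_mem hc) hx)
  calc _ = c⁻¹ * (x * x) * c := by group
    _ = D.q := by rw [e]; group

omit h in
theorem pt_sq (hf : FC D) {t : G} (ht : TrPt D t) : t * t = 1 := by
  obtain ⟨g, rfl⟩ := ht
  calc _ = g * (D.z * D.z) * g⁻¹ := by group
    _ = 1 := by rw [hf.ft.z2]; group

theorem red {x : G} (hx : x ∈ D.C) (hp : TrPt D (x * x)) : TrRed D x := by
  obtain ⟨c, hc, e⟩ := h.fc.cls _ (mul_mem hx hx) (pt_sq h.fc hp)
  refine TrRed.step (c := c) ?_ (h.fc.conj0 hc hx)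
  have hp' := hp.cj c
  have e1 : c * (x * x) * c⁻¹ = (c * x * c⁻¹) * (c * x * c⁻¹) := by group
  have hx' : c * x * c⁻¹ ∈ D.C := mul_mem (mul_mem hc hx) (inv_mem hc)
  rw [e1] at e hp'
  generalize c * x * c⁻¹ = x' at *
  rcases e with e | e | e | e | e | e | e
  · obtain ⟨g, hg⟩ := hp'
    rw [e] at hg
    exact absurd (by simpa using hg) h.fc.ft.z1
  · exact ⟨1, by simpa using hx', by simpa using e, by simp⟩
  · exact h.caseQ hx' e
  · obtain ⟨g, hg⟩ := hp'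
    exact absurd (hg.trans e) (h.n4 g)
  · have h1 : x' ∈ D.K D.q := h.fc.Kyq ⟨hx', memZ.2 (by rw [← e, mul_assoc])⟩
    obtain ⟨c0, hc0, e0⟩ := h.fc.ft.rc
    refine TrRed.step (c := n) (h.caseQ' (c := n * n * c0) (h.cjQ h1).1
      (mul_mem h.dQ.1 (h.fc.le0 hc0)) ?_) (h.k1 h1)
    calc _ = n * (x' * x') * n⁻¹ := by group
      _ = _ := by rw [e, ← h.nr, ← e0]; group
  · exfalso
    obtain ⟨c1, -, e1⟩ := h.fc.rq
    rw [e] at hp'
    have := (hp'.cj n⁻¹).cj c1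
    have e2 : n⁻¹ * (D.y * D.z) * n⁻¹⁻¹ = (n⁻¹ * D.y * n) * (n⁻¹ * D.z * n) := by group
    rw [e2, h.ny', h.nz', e1] at this
    obtain ⟨g, hg⟩ := this
    exact h.n4 g hg
  · exact absurd e (h.fc.n8 _ hx')

theorem key {x g : G} (hx : x ∈ D.C) (hg : g * x * g⁻¹ ∈ D.C) (hp : TrPt D (x * x)) :
    g * x * g⁻¹ ∈ D.C0 ↔ x ∈ D.C0 := by
  obtain ⟨g1, a1, a2, a3⟩ := h.red hx hp
  have e1 : g * (x * x) * g⁻¹ = (g * x * g⁻¹) * (g * x * g⁻¹) := by group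
  obtain ⟨g2, b1, b2, b3⟩ := h.red hg (e1 ▸ hp.cj g)
  have he : g2 * g * g1⁻¹ ∈ D.C := by
    rw [h.memC]
    calc g2 * g * g1⁻¹ * D.z * (g2 * g * g1⁻¹)⁻¹
        = g2 * g * g1⁻¹ * ((g1 * x * g1⁻¹) * (g1 * x * g1⁻¹)) * (g2 * g * g1⁻¹)⁻¹ := by rw [a2]
      _ = (g2 * (g * x * g⁻¹) * g2⁻¹) * (g2 * (g * x * g⁻¹) * g2⁻¹) := by group
      _ = D.z := b2
  have e2 : g2 * (g * x * g⁻¹) * g2⁻¹ = (g2 * g * g1⁻¹) * (g1 * x * g1⁻¹) * (g2 * g * g1⁻¹)⁻¹ := by group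
  rw [← b3, ← a3, e2, h.fc.conj0 he a1]

omit h in
theorem inv0 (hf : FC D) {t : G} (ht : t ∈ D.C) (e : t * t = 1) : t ∈ D.C0 := by
  obtain ⟨c, hc, e⟩ := hf.cls t ht e
  rw [← hf.conj0 hc ht]
  rcases e with e | e | e | e | e | e | e <;> rw [e]
  exacts [one_mem _, hf.ft.mz, hf.ft.mq, hf.m4, hf.ft.my, mul_mem hf.ft.my hf.ft.mz, hf.m8]

end TrH

open Classical in
/-- the sign character of `C` with kernel `C0` -/
noncomputable def trMu {G : Type*} [Group G] {D : Dt G} (h : FC D) : D.C →* ℤˣ :=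
  MonoidHom.mk' (fun c => if (c : G) ∈ D.C0 then 1 else -1) fun a b => by
    have := h.mul0 a.2 b.2
    by_cases ha : (a : G) ∈ D.C0 <;> by_cases hb : (b : G) ∈ D.C0 <;> simp_all

theorem trMu_pos {G : Type*} [Group G] {D : Dt G} (h : FC D) {c : D.C} (e : (c : G) ∈ D.C0) : trMu h c = 1 :=
  if_pos e

theorem trMu_neg {G : Type*} [Group G] {D : Dt G} (h : FC D) {c : D.C} (e : (c : G) ∉ D.C0) : trMu h c = -1 :=
  if_neg e

theorem TrH.val {G : Type*} [Group G] [Finite G] {D : Dt G} {n : G} (h : TrH D n) (ho : Odd D.C.index) {x : G}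
    (hx : x ∈ D.C) (h0 : x ∉ D.C0) (hp : TrPt D (x * x)) : MonoidHom.transfer (trMu h.fc) x = -1 := by
  rw [CL.Transfer.transfer_eq_pow_of_conj (trMu h.fc) x (-1), ho.neg_one_pow]
  intro k g hg
  have h4 := TrH.pt_sq h.fc hp
  have ev : ∀ j : ℕ, x ^ (j + j) * x ^ (j + j) = 1 := fun j => by
    calc x ^ (j + j) * x ^ (j + j) = (x * x * (x * x)) ^ j := by
          rw [← pow_two, ← pow_two, ← pow_two, ← pow_mul, ← pow_mul, ← pow_mul]; congr 1; ring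
      _ = 1 := by rw [h4, one_pow]
  rcases Nat.even_or_odd k with ⟨j, rfl⟩ | ⟨j, rfl⟩
  · rw [Even.neg_one_pow ⟨j, rfl⟩]
    refine trMu_pos _ (TrH.inv0 h.fc hg ?_)
    calc _ = g⁻¹ * (x ^ (j + j) * x ^ (j + j)) * g := by group
      _ = 1 := by rw [ev]; group
  · rw [Odd.neg_one_pow ⟨j, rfl⟩]
    refine trMu_neg _ ?_
    have hk : x ^ (2 * j + 1) ∈ D.C := pow_mem hx _
    have e0 : x ^ (j + j) ∈ D.C0 := TrH.inv0 h.fc (pow_mem hx _) (ev j)
    have e1 : x ^ (2 * j + 1) ∉ D.C0 := by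
      rw [pow_succ, two_mul, h.fc.mul0 (pow_mem hx _) hx]; tauto
    have e2 : x ^ (2 * j + 1) * x ^ (2 * j + 1) = x * x := by
      calc _ = x ^ (j + j) * x ^ (j + j) * (x * x) := by group
        _ = _ := by rw [ev, one_mul]
    have := h.key (g := g⁻¹) hk (by simpa using hg) (e2 ▸ hp)
    rw [inv_inv] at this
    exact fun e => e1 (this.1 e)

theorem trThm : TrThm.{u} := by
  intro G _ _ D n hf hC ho n4 nz nq nr
  have h : TrH D n := ⟨hf, hC, n4, nz, nq, nr⟩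
  set V : G →* ℤˣ := MonoidHom.transfer (trMu h.fc) with hV
  have v1 : V D.x1 = -1 := h.val ho hf.m1 hf.n1 (hf.s1 ▸ h.pty)
  have v5 : V D.x5 = -1 := h.val ho hf.m5 hf.n5 (hf.s5 ▸ ⟨1, by simp⟩)
  have v7 : V D.x7 = -1 := h.val ho hf.m7 hf.n7 (hf.s7 ▸ h.ptr)
  have main : ∀ c ∈ D.C, (V c = 1 ↔ c ∈ D.C0) := by
    intro c hc
    have g := hf.genC
    rw [g] at hc
    induction hc using closure_induction with
    | mem x hx =>
      rcases hx with rfl | rfl | rfl | rfl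
      · exact iff_of_false (by rw [v1]; decide) hf.n1
      · refine iff_of_false ?_ (by rw [hf.conj0 (hf.le0 hf.mf) hf.m1]; exact hf.n1)
        rw [map_mul, map_mul, map_inv, mul_inv_cancel_comm, v1]; decide
      · exact iff_of_false (by rw [v5]; decide) hf.n5
      · exact iff_of_false (by rw [v7]; decide) hf.n7
    | one => simp
    | mul x y hx hy ihx ihy =>
      rw [← g] at hx hy
      rw [hf.mul0 hx hy, ← iff_congr ihx ihy, map_mul]
      rcases Int.units_eq_one_or (V x) with a | a <;> rcases Int.units_eq_one_or (V y) with b | b <;>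
        rw [a, b] <;> decide
    | inv x hx ih =>
      rw [map_inv, inv_eq_one, inv_mem_iff]
      exact ih
  refine ⟨V.ker, inferInstance, ?_, ?_⟩
  · have : V.range = ⊤ := by
      rw [eq_top_iff]
      intro a _
      rcases Int.units_eq_one_or a with rfl | rfl
      · exact one_mem _
      · exact ⟨_, v1⟩
    rw [index_ker, this, card_top, Nat.card_eq_fintype_card, Fintype.card_units_int]
  · ext c
    rw [mem_inf, MonoidHom.mem_ker]
    exact ⟨fun e => (main c e.2).1 e.1, fun e => ⟨(main c (hf.le0 e)).2 e, hf.le0 e⟩⟩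

end CL.RF2
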